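import Cfsg.Agent.H3.Asm36
import Cfsg.Agent.H3.NotSq
import Cfsg.Agent.H1.RowU
import Cfsg.Agent.H1.RowExc
import Cfsg.Agent.H1.RowChev
import Cfsg.Agent.SporadicA.MathieuRecog

/-!
# S1835: assembly (helper3)
-/

set_option autoImplicit false

namespace Cfsg.Agent.H3.Asm35

open Subgroup Cfsg Cfsg.Agent.H4.LfTrans Cfsg.Agent.H5.Resid Cfsg.Agent.H3.Table

universe u

/-- `L/O_2(L)` is `L₄(2)` or `L₅(2)` -/
def Big {G : Type u} [Group G] (L : Subgroup G) : Prop :=
  ∃ (F : Type) (_ : Field F) (_ : Fintype F), Fintype.card F = 2 ∧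
    (Nonempty ((↥L ⧸ Cfsg.pCore 2 ↥L) ≃* Matrix.ProjectiveSpecialLinearGroup (Fin 4) F) ∨
      Nonempty ((↥L ⧸ Cfsg.pCore 2 ↥L) ≃* Matrix.ProjectiveSpecialLinearGroup (Fin 5) F))

section

variable {G : Type u} [Group G] {L : Subgroup G}

theorem Big.card (h : Big L) : Nat.card (L ⧸ pCore 2 L) = 20160 ∨ Nat.card (L ⧸ pCore 2 L) = 9999360 := by
  obtain ⟨F, _, _, hF, h | h⟩ := h <;> obtain ⟨e⟩ := h
  · left
    rw [Nat.card_congr e.toEquiv, (Asm36.card_psl hF).2.1]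
  · right
    rw [Nat.card_congr e.toEquiv, (Asm36.card_psl hF).2.2]

theorem Big.not_sq (h : Big L) : ¬ H1.RowU.SqOne (L ⧸ pCore 2 L) := by
  obtain ⟨F, _, _, hF, h | h⟩ := h <;> obtain ⟨e⟩ := h
  · have hchar : CharP F 2 := Asm36.charP_of_card hF
    exact fun h => NotSq.psl_not_sqOne (m := 1) hF (NotSq.SqOne.congr e h)
  · have hchar : CharP F 2 := Asm36.charP_of_card hF
    exact fun h => NotSq.psl_not_sqOne (m := 2) hF (NotSq.SqOne.congr e h)

theorem Big.not_sl (h : Big L) {F : Type*} [Field F] [Fintype F]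
    (e : (L ⧸ pCore 2 L) ≃* Matrix.SpecialLinearGroup (Fin 2) F) : False := by
  have h1 := NotSq.card_sl_ne (F := F)
  rw [← Nat.card_congr e.toEquiv] at h1
  rcases h.card with h2 | h2
  · exact h1.1 h2
  · exact h1.2 h2

theorem Big.not_conc0 (h : Big L) : ¬ Conc0 L := by
  have h1 := h.card
  rintro (⟨⟨e⟩⟩ | ⟨⟨e⟩⟩ | ⟨⟨e⟩⟩)
  · rw [Nat.card_congr e.toEquiv, H5.ResidEnd.card_alt_six] at h1
    omega
  · rw [Nat.card_congr e.toEquiv, H5.ResidEnd.card_alt_five] at h1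
    omega
  · rw [Nat.card_congr e.toEquiv, H5.ResidEnd.card_l3] at h1
    omega

theorem Big.seven [Finite G] (h : Big L) : 7 ∣ Nat.card G := by
  have h1 : Nat.card (L ⧸ pCore 2 L) ∣ Nat.card L := Subgroup.card_quotient_dvd_card _
  have h2 : 7 ∣ Nat.card (L ⧸ pCore 2 L) := by
    rcases h.card with h2 | h2 <;> rw [h2] <;> norm_num
  exact (h2.trans h1).trans (Subgroup.card_subgroup_dvd_card L)

/-- `2^9` divides the order -/
theorem Big.two_pow [Finite G] (h : Big L) {T : Subgroup G} (hL : L ∈ calLf T) : 512 ∣ Nat.card G := by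
  have h2 : Fact (Nat.Prime 2) := ⟨Nat.prime_two⟩
  obtain ⟨-, hA⟩ := H4.Small.acts_inner hL
  have h8 := hA.eight_le
  have h3 : H4.Lf.UU L ≤ (pCore 2 ↥L).map L.subtype := fun x hx => (H4.Lf.mem_omega.1 hx).1
  have h4 : 8 ≤ Nat.card (pCore 2 ↥L) := by
    have h5 := Nat.card_le_card_of_injective _ (Subgroup.inclusion_injective h3)
    have h6 : Nat.card ↥((pCore 2 ↥L).map L.subtype) = Nat.card (pCore 2 ↥L) :=
      Nat.card_congr ((pCore 2 ↥L).equivMapOfInjective _ L.subtype_injective).toEquiv.symm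
    omega
  obtain ⟨n, hn⟩ := IsPGroup.iff_card.1 (Lib.Cores.pCore_isPGroup (G := L) 2)
  have hn3 : 3 ≤ n := by
    by_contra h5
    have : 2 ^ n ≤ 2 ^ 2 := Nat.pow_le_pow_right (by norm_num) (by omega)
    omega
  have h5 : 8 ∣ Nat.card (pCore 2 ↥L) := by
    rw [hn]
    exact (show (8 : ℕ) = 2 ^ 3 by norm_num) ▸ Nat.pow_dvd_pow 2 hn3
  have h6 : 64 ∣ Nat.card (L ⧸ pCore 2 L) := by
    rcases h.card with h2 | h2 <;> rw [h2] <;> norm_num
  have h7 := Subgroup.card_eq_card_quotient_mul_card_subgroup (pCore 2 ↥L)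
  have h8 : 512 ∣ Nat.card L := by
    rw [h7, show 512 = 64 * 8 by norm_num]
    exact Nat.mul_dvd_mul h6 h5
  exact h8.trans (Subgroup.card_subgroup_dvd_card L)

end

theorem charP_of_card_pow {F : Type*} [Field F] [Fintype F] {m : ℕ} (h2 : Fintype.card F = 2 ^ m) : CharP F 2 := by
  obtain ⟨p, hp⟩ := CharP.exists F
  obtain ⟨n, hpp, hn⟩ := FiniteField.card F p
  rw [h2] at hn
  have h4 : p ∣ 2 ^ m := by rw [hn]; exact dvd_pow_self p n.ne_zero
  have h5 : p = 2 := (Nat.prime_dvd_prime_iff_eq hpp Nat.prime_two).1 (hpp.dvd_of_dvd_pow h4)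
  exact h5 ▸ hp

section lie

variable {G : Type u} [Group G] [Finite G]

omit [Finite G] in
theorem not_big_of_sl {ι : Type} {F : ι → Type} [∀ i, Field (F i)] [∀ i, Fintype (F i)]
    (h : H1.RgdRow.RowL (fun i => Matrix.SpecialLinearGroup (Fin 2) (F i)) G) : Row G (fun L => ¬ Big L) := by
  intro T L hL hb
  obtain ⟨-, i, ⟨e⟩⟩ := h T L hL.1
  exact hb.not_sl e

theorem card_u54 {F : Type} [Field F] [Fintype F] (hF : Fintype.card F = 16) : ¬ 7 ∣ Nat.card (Cfsg.PSU 5 F 4) := by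
  have h := S0280.result (F := F) (q := 4) (by rw [hF]; norm_num) 5 (by norm_num)
  norm_num [Finset.prod_range_succ, Nat.even_iff] at h
  intro h7
  obtain ⟨k, hk⟩ := h7
  rw [hk] at h
  omega

/-- **Lie rank 2 over a field with more than two elements** -/
theorem row_lie (hFT : H5.Top.FT.{0}) (h : IsLieRankTwoCharTwoLargeField G)
    (h2F4 : Lie.Iso2F4 G → Row G (fun L => ¬ Big L)) : Row G (fun L => ¬ Big L) := by
  rcases h with ⟨F, _, _, hF, h4, h⟩ | ⟨F, _, _, n, hn, hF, h⟩ | ⟨F, _, _, hF, h⟩ | ⟨K, _, _, n, hn, hK, h⟩ | h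
  · rcases h with h | h | h <;> obtain ⟨e⟩ := h
    · exact not_big_of_sl (H1.RowPSL.row_psl_three e)
    · exact not_big_of_sl (H1.RowChev.row_pSp e)
    · exact not_big_of_sl (H1.RowExc.row_gTwo e)
  · obtain ⟨e⟩ := h
    have hchar : CharP F 2 := charP_of_card_pow (m := n * 2) (by rw [hF, pow_mul])
    have hq : 3 ≤ 2 ^ n := by
      calc 3 ≤ 2 ^ 2 := by norm_num
        _ ≤ 2 ^ n := Nat.pow_le_pow_right (by norm_num) hn
    have : Finite (Cfsg.PSU 4 F (2 ^ n)) := Finite.of_equiv _ e.toEquiv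
    obtain ⟨Q, hQ, hrow, -⟩ := H1.RowU.row_model_four hF hq (fun T hT => hFT T hT)
    intro T L hL hb
    obtain ⟨-, i, ⟨f⟩⟩ := H1.RgdRow.RowL.congr e hrow T L hL.1
    exact hb.not_sq (NotSq.SqOne.congr f.symm (hQ i))
  · obtain ⟨e⟩ := h
    intro T L hL hb
    have h7 := hb.seven
    rw [Nat.card_congr e.toEquiv] at h7
    exact card_u54 hF h7
  · obtain ⟨e⟩ := h
    have hchar : CharP K 2 := charP_of_card_pow (m := n * 3) (by rw [hK, pow_mul])
    have hq : IsPrimePow (2 ^ n) := (Nat.prime_two.isPrimePow).pow (by omega)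
    obtain ⟨F, _, _, _, -, hrow⟩ := H1.RowExc.row_twD4 hq hK e
    exact not_big_of_sl hrow
  · exact h2F4 h

end lie

/-- the rows which are proved in other files -/
structure Hyp35 (G : Type u) [Group G] [Finite G] : Prop where
  resid : H5.Resid.Hyp G
  f4 : Lie.Iso2F4 G → Row G (fun L => ¬ Big L)
  he : Spor.IsoHe G → Row G (fun L => ¬ Big L)
  j4 : Spor.IsoJ4 G → ∀ (T : Sylow 2 G), ∀ L ∈ calLfMax (T : Subgroup G), ¬ Big L

section

variable {G : Type u} [Group G] [Finite G]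

omit [Finite G] in
/-- the isomorphism type of `L/O_2(L)` does not depend on the field -/
theorem psl4_of_card {L : Subgroup G} (h : Big L) (hc : Nat.card (L ⧸ pCore 2 L) ≠ 9999360) :
    ∃ (F : Type) (_ : Field F) (_ : Fintype F), Fintype.card F = 2 ∧
      Nonempty ((↥L ⧸ Cfsg.pCore 2 ↥L) ≃* Matrix.ProjectiveSpecialLinearGroup (Fin 4) F) := by
  obtain ⟨F, _, _, hF, h | h⟩ := h
  · exact ⟨F, _, _, hF, h⟩
  · exfalso
    obtain ⟨e⟩ := h
    exact hc (by rw [Nat.card_congr e.toEquiv, (Asm36.card_psl hF).2.2])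

omit [Finite G] in
theorem not_thirtyone {L : Subgroup G} (h : ¬ 31 ∣ Nat.card G) : Nat.card (L ⧸ pCore 2 L) ≠ 9999360 := by
  intro h1
  apply h
  have h2 : Nat.card (L ⧸ pCore 2 L) ∣ Nat.card L := Subgroup.card_quotient_dvd_card _
  rw [h1] at h2
  exact ((by norm_num : 31 ∣ 9999360).trans h2).trans (Subgroup.card_subgroup_dvd_card L)

/-- **S1835** -/
theorem main (hFT0 : H5.Top.FT.{0}) (hFT : H5.Top.FT.{u}) (hE : IsOfEvenCharacteristic G)
    (hl : IsOnQTKEList G) (H : Hyp35 G) (T : Sylow 2 G) (L : Subgroup G) (hL : L ∈ calLfMax (T : Subgroup G))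
    (hn : Big L) :
    (∃ (F : Type) (_ : Field F) (_ : Fintype F), Fintype.card F = 2 ∧ Nonempty ((↥L ⧸ Cfsg.pCore 2 ↥L) ≃* Matrix.ProjectiveSpecialLinearGroup (Fin 4) F)) ∧
    ((∃ (F : Type) (_ : Field F) (_ : Fintype F), Fintype.card F = 2 ∧ Nonempty (G ≃* Matrix.ProjectiveSpecialLinearGroup (Fin 5) F)) ∨ Cfsg.Spor.IsoM24 G) := by
  have hLf : L ∈ calLf (T : Subgroup G) := ⟨hL.1.1, hL.2⟩
  rcases table hFT hE hl H.resid with h | h | h
  · exact absurd (h T L hLf) hn.not_conc0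
  · exact absurd hn (row_lie hFT0 h H.f4 T L hLf)
  · rcases h with ⟨F, _, _, hF, h⟩ | ⟨F, _, _, hF, h⟩ | h | h | h | h | h | h
    · exfalso
      obtain ⟨e⟩ := h
      have hchar : CharP F 2 := Asm36.charP_of_card hF
      obtain ⟨_, _, ⟨f⟩⟩ := H1.RowPSLFive.row_psl_four hF e T L hLf.1
      have h1 := hn.card
      rw [Nat.card_congr f.toEquiv, (Asm36.card_psl hF).1] at h1
      omega
    · obtain ⟨e⟩ := h
      have hchar : CharP F 2 := Asm36.charP_of_card hF
      obtain ⟨_, i, ⟨f⟩⟩ := H1.RowPSLFive.row_psl_five hF e T L hLf.1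
      fin_cases i
      · exfalso
        have h1 := hn.card
        have h2 : Nat.card (L ⧸ pCore 2 L) = 168 := (Nat.card_congr f.toEquiv).trans (Asm36.card_psl hF).1
        rw [h2] at h1
        omega
      · exact ⟨⟨F, _, _, hF, ⟨f⟩⟩, Or.inl ⟨F, _, _, hF, ⟨e⟩⟩⟩
    · exfalso
      obtain ⟨e⟩ := h
      have hc : Nat.card G = 181440 := by
        rw [Nat.card_congr e.toEquiv, nat_card_alternatingGroup, Nat.card_fin, show Nat.factorial 9 = 362880 by rfl]
      have h1 := hn.two_pow hLf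
      rw [hc] at h1
      revert h1
      norm_num
    · exfalso
      obtain ⟨e⟩ := h
      have h1 := hn.two_pow hLf
      rw [Nat.card_congr e.toEquiv, SporadicA.MathieuRecog.card_M22] at h1
      revert h1
      norm_num
    · exfalso
      obtain ⟨e⟩ := h
      have h1 := hn.two_pow hLf
      rw [Nat.card_congr e.toEquiv, SporadicA.MathieuRecog.card_M23] at h1
      revert h1
      norm_num
    · refine ⟨psl4_of_card hn (not_thirtyone ?_), Or.inr h⟩
      obtain ⟨e⟩ := h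
      rw [Nat.card_congr e.toEquiv, M24Loc.card_M24]
      norm_num
    · exact absurd hn (H.he h T L hLf)
    · exact absurd hn (H.j4 h T L hL)

end

end Cfsg.Agent.H3.Asm35
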