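import Cfsg.Agent.H3.Table
import Cfsg.Agent.H3.M24Row
import Cfsg.Agent.H1.RowPSLFive

/-!
# S1836: assembly (helper3)
-/

set_option autoImplicit false

namespace Cfsg.Agent.H3.Asm36

open Subgroup Cfsg Cfsg.Agent.H4.LfTrans Cfsg.Agent.H5.Resid Cfsg.Agent.H3.Table

universe u

/-- the types of S1836 (3) -/
def Conc36 {G : Type u} [Group G] (L : Subgroup G) : Prop :=
  ((∃ (F : Type) (_ : Field F) (_ : Fintype F), Fintype.card F = 2 ∧ (Nonempty ((↥L ⧸ Cfsg.twoZCore ↥L) ≃* Matrix.ProjectiveSpecialLinearGroup (Fin 3) F) ∨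
        Nonempty ((↥L ⧸ Cfsg.twoZCore ↥L) ≃* Matrix.ProjectiveSpecialLinearGroup (Fin 4) F) ∨
        Nonempty ((↥L ⧸ Cfsg.twoZCore ↥L) ≃* Matrix.ProjectiveSpecialLinearGroup (Fin 5) F))) ∨
      Nonempty ((↥L ⧸ Cfsg.twoZCore ↥L) ≃* ↥(alternatingGroup (Fin 5))) ∨ Nonempty ((↥L ⧸ Cfsg.twoZCore ↥L) ≃* ↥(alternatingGroup (Fin 6))) ∨
      Nonempty ((↥L ⧸ Cfsg.twoZCore ↥L) ≃* ↥(alternatingGroup (Fin 7))) ∨ Nonempty ((↥L ⧸ Cfsg.twoZCore ↥L) ≃* ↥(alternatingGroup (Fin 8))) ∨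
      (∃ (F : Type) (_ : Field F) (_ : Fintype F), Fintype.card F = 9 ∧ Nonempty ((↥L ⧸ Cfsg.twoZCore ↥L) ≃* Cfsg.PSU 3 F 3)) ∨
      Cfsg.IsHatA6 (↥L ⧸ Cfsg.pCore 2 ↥L))

theorem charP_of_card {F : Type*} [Field F] [Fintype F] (h2 : Fintype.card F = 2) : CharP F 2 := by
  obtain ⟨p, hp⟩ := CharP.exists F
  obtain ⟨n, hpp, hn⟩ := FiniteField.card F p
  rw [h2] at hn
  have h4 : p ∣ 2 := by rw [hn]; exact dvd_pow_self p n.ne_zero
  have h5 : p = 2 := (Nat.prime_dvd_prime_iff_eq hpp Nat.prime_two).1 h4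
  exact h5 ▸ hp

section types

variable {G : Type u} [Group G] [Finite G] {L : Subgroup G}

omit [Finite G] in
theorem of_alt_five (h : IsAlt 5 L) : Conc36 L := Or.inr (Or.inl (H5.ResidEnd.alt_five h))

omit [Finite G] in
theorem of_alt_six (h : IsAlt 6 L) : Conc36 L := Or.inr (Or.inr (Or.inl (H5.ResidEnd.alt_six h)))

theorem of_l3 (h : IsL3 L) : Conc36 L :=
  Or.inl ⟨ZMod 2, inferInstance, inferInstance, by rw [ZMod.card], Or.inl (H5.ResidEnd.l3 h)⟩

theorem of_conc0 (h : Conc0 L) : Conc36 L := by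
  rcases h with h | h | h
  · exact of_alt_six h
  · exact of_alt_five h
  · exact of_l3 h

omit [Finite G] in
theorem of_alt_eight (h : Nonempty ((L ⧸ pCore 2 L) ≃* alternatingGroup (Fin 8))) : Conc36 L := by
  obtain ⟨e⟩ := h
  have : IsSimpleGroup (alternatingGroup (Fin 8)) := alternatingGroup.isSimpleGroup (by simp)
  have hc : Nat.card (alternatingGroup (Fin 8)) = 20160 := by
    rw [nat_card_alternatingGroup, Nat.card_fin, show Nat.factorial 8 = 40320 by rfl]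
  exact Or.inr (Or.inr (Or.inr (Or.inr (Or.inl (H5.ResidEnd.quot_equiv (by rw [hc]; norm_num) e)))))

/-- `L / O_{2,Z}(L) ≃ (L / O_2(L)) / Z(L / O_2(L))` -/
noncomputable def zEquiv (L : Type*) [Group L] : (L ⧸ twoZCore L) ≃* ((L ⧸ pCore 2 L) ⧸ center (L ⧸ pCore 2 L)) := by
  let f : L →* ((L ⧸ pCore 2 L) ⧸ center (L ⧸ pCore 2 L)) :=
    (QuotientGroup.mk' (center (L ⧸ pCore 2 L))).comp (QuotientGroup.mk' (pCore 2 L))
  have hf : Function.Surjective f :=
    (QuotientGroup.mk'_surjective _).comp (QuotientGroup.mk'_surjective _)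
  have hk : f.ker = twoZCore L := by
    ext x
    rw [MonoidHom.mem_ker, twoZCore, mem_comap]
    exact QuotientGroup.eq_one_iff (QuotientGroup.mk' (pCore 2 L) x)
  exact (QuotientGroup.quotientMulEquivOfEq hk.symm).trans (QuotientGroup.quotientKerEquivOfSurjective f hf)

omit [Finite G] in
theorem of_six (h : Nonempty (((L ⧸ pCore 2 L) ⧸ center (L ⧸ pCore 2 L)) ≃* alternatingGroup (Fin 6))) : Conc36 L := by
  obtain ⟨e⟩ := h
  exact Or.inr (Or.inr (Or.inl ⟨(zEquiv L).trans e⟩))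

omit [Finite G] in
theorem card_psl {F : Type} [Field F] [Fintype F] (hF : Fintype.card F = 2) :
    Nat.card (Matrix.ProjectiveSpecialLinearGroup (Fin 3) F) = 168 ∧
      Nat.card (Matrix.ProjectiveSpecialLinearGroup (Fin 4) F) = 20160 ∧
      Nat.card (Matrix.ProjectiveSpecialLinearGroup (Fin 5) F) = 9999360 := by
  refine ⟨?_, ?_, ?_⟩
  · have h := S0243.result hF 3 (by norm_num)
    rw [Fin.prod_univ_three] at h
    norm_num at h
    exact h
  · have h := S0243.result hF 4 (by norm_num)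
    rw [Fin.prod_univ_four] at h
    norm_num at h
    exact h
  · have h := S0243.result hF 5 (by norm_num)
    rw [Fin.prod_univ_five] at h
    norm_num at h
    exact h

theorem of_psl3 {F : Type} [Field F] [Fintype F] (hF : Fintype.card F = 2)
    (h : Nonempty ((L ⧸ pCore 2 L) ≃* Matrix.ProjectiveSpecialLinearGroup (Fin 3) F)) : Conc36 L := by
  obtain ⟨e⟩ := h
  have : Finite (Matrix.ProjectiveSpecialLinearGroup (Fin 3) F) := Finite.of_equiv _ e.toEquiv
  have : IsSimpleGroup (Matrix.ProjectiveSpecialLinearGroup (Fin 3) F) := S0249.result 3 le_rfl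
  exact Or.inl ⟨F, _, _, hF, Or.inl (H5.ResidEnd.quot_equiv (by rw [(card_psl hF).1]; norm_num) e)⟩

theorem of_psl4 {F : Type} [Field F] [Fintype F] (hF : Fintype.card F = 2)
    (h : Nonempty ((L ⧸ pCore 2 L) ≃* Matrix.ProjectiveSpecialLinearGroup (Fin 4) F)) : Conc36 L := by
  obtain ⟨e⟩ := h
  have : Finite (Matrix.ProjectiveSpecialLinearGroup (Fin 4) F) := Finite.of_equiv _ e.toEquiv
  have : IsSimpleGroup (Matrix.ProjectiveSpecialLinearGroup (Fin 4) F) := S0249.result 4 (by norm_num)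
  exact Or.inl ⟨F, _, _, hF, Or.inr (Or.inl (H5.ResidEnd.quot_equiv (by rw [(card_psl hF).2.1]; norm_num) e))⟩

end types

section rows

variable {G : Type u} [Group G] [Finite G]

theorem row_l42 {F : Type} [Field F] [Fintype F] (hF : Fintype.card F = 2)
    (e : G ≃* Matrix.ProjectiveSpecialLinearGroup (Fin 4) F) : Row G Conc36 := by
  intro T L hL
  have hchar : CharP F 2 := charP_of_card hF
  obtain ⟨_, _, h⟩ := H1.RowPSLFive.row_psl_four hF e T L hL.1
  exact of_psl3 hF h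

theorem row_l52 {F : Type} [Field F] [Fintype F] (hF : Fintype.card F = 2)
    (e : G ≃* Matrix.ProjectiveSpecialLinearGroup (Fin 5) F) : Row G Conc36 := by
  intro T L hL
  have hchar : CharP F 2 := charP_of_card hF
  obtain ⟨-, i, h⟩ := H1.RowPSLFive.row_psl_five hF e T L hL.1
  fin_cases i
  · exact of_psl3 hF h
  · exact of_psl4 hF h

theorem row_a9 (hFT : H5.Top.FT.{u}) (hE : IsOfEvenCharacteristic G) (e : G ≃* alternatingGroup (Fin 9)) :
    Row G Conc36 := by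
  have hc : Nat.card G = 181440 := by
    rw [Nat.card_congr e.toEquiv, nat_card_alternatingGroup, Nat.card_fin, show Nat.factorial 9 = 362880 by rfl]
  have h128 : ¬ 128 ∣ Nat.card G := by rw [hc]; norm_num
  intro T L hL
  obtain ⟨-, h2⟩ := H5.Row64.row64 hFT hE h128 T hL.1
  rcases h2 with ⟨-, -, h2⟩ | ⟨-, -, h2⟩
  · exact of_l3 h2
  · exact of_alt_five h2

theorem row_m24 (h : Spor.IsoM24 G) : Row G Conc36 := by
  obtain ⟨e⟩ := h
  intro T L hL
  have h1 : L.map e.toMonoidHom ∈ calL ((mapSylow e T : Sylow 2 M24) : Subgroup M24) := by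
    rw [coe_mapSylow]
    exact map_mem_calL e hL.1
  obtain ⟨-, h2⟩ := M24Row.row24 _ h1
  have e1 : (L ⧸ pCore 2 L) ≃* (↥(L.map e.toMonoidHom) ⧸ pCore 2 ↥(L.map e.toMonoidHom)) := quotEquiv (sm e L)
  rcases h2 with ⟨⟨f⟩⟩ | ⟨⟨f⟩⟩ | ⟨-, ⟨f⟩, -⟩
  · exact of_alt_eight ⟨e1.trans f⟩
  · exact of_l3 ⟨e1.trans f⟩
  · exact of_six ⟨(QuotientGroup.congr _ _ e1 (map_center e1)).trans f⟩

end rows

/-- the rows which are proved in other files -/
structure Hyp36 (G : Type u) [Group G] [Finite G] : Prop where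
  resid : H5.Resid.Hyp G
  he : Spor.IsoHe G → Row G Conc36

/-- **S1836** -/
theorem main {G : Type u} [Group G] [Finite G] (hFT : H5.Top.FT.{u}) (hE : IsOfEvenCharacteristic G)
    (hl : IsOnQTKEList G) (H : Hyp36 G) (T : Sylow 2 G) (L : Subgroup G) (hL : L ∈ calLf (T : Subgroup G)) :
    Cfsg.IsLieRankTwoCharTwoLargeField G ∨
    (Cfsg.Spor.IsoM22 G ∨ Cfsg.Spor.IsoM23 G ∨ Cfsg.Spor.IsoJ4 G) ∨ Conc36 L := by
  rcases table hFT hE hl H.resid with h | h | h
  · exact Or.inr (Or.inr (of_conc0 (h T L hL)))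
  · exact Or.inl h
  · rcases h with ⟨F, _, _, hF, ⟨e⟩⟩ | ⟨F, _, _, hF, ⟨e⟩⟩ | ⟨⟨e⟩⟩ | h | h | h | h | h
    · exact Or.inr (Or.inr (row_l42 hF e T L hL))
    · exact Or.inr (Or.inr (row_l52 hF e T L hL))
    · exact Or.inr (Or.inr (row_a9 hFT hE e T L hL))
    · exact Or.inr (Or.inl (Or.inl h))
    · exact Or.inr (Or.inl (Or.inr (Or.inl h)))
    · exact Or.inr (Or.inr (row_m24 h T L hL))
    · exact Or.inr (Or.inr (H.he h T L hL))
    · exact Or.inr (Or.inl (Or.inr (Or.inr h)))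

end Cfsg.Agent.H3.Asm36
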