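import Cfsg.Agent.H3.Asm35
import Cfsg.Agent.H3.NotComm
import Cfsg.Agent.H2.TwFFin
import Cfsg.Agent.H4.Hyp
import Cfsg.Agent.H6.He.Row
import Cfsg.Agent.H7.J4Row

/-!
# S1835, S1836: the rows of `³D₄(2)`, `²F₄(q)`, `He`, `J₄` (helper3)
-/

set_option autoImplicit false

namespace Cfsg.Agent.H3.End35

open Subgroup Cfsg Cfsg.Agent.H4.LfTrans Cfsg.Agent.H5.Resid Cfsg.Agent.H3.Table Cfsg.Agent.H3.Asm36 Cfsg.Agent.H3.Asm35

universe u

variable {G : Type u} [Group G] [Finite G]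

theorem he36 (h : Spor.IsoHe G) : Row G Conc36 := by
  intro T L hL
  rcases (H6.HeRow.he_mem h T hL.1).2 with h1 | h1
  · exact of_l3 h1
  · exact Or.inr (Or.inr (Or.inr (Or.inr (Or.inr (Or.inr h1)))))

theorem he35 (h : Spor.IsoHe G) : Row G (fun L => ¬ Big L) := by
  intro T L hL hb
  have h1 := hb.card
  rcases (H6.HeRow.he_mem h T hL.1).2 with ⟨⟨e⟩⟩ | ⟨-, h2, ⟨e⟩⟩
  · rw [Nat.card_congr e.toEquiv, H5.ResidEnd.card_l3] at h1
    omega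
  · have h3 := Subgroup.card_eq_card_quotient_mul_card_subgroup (center (L ⧸ pCore 2 L))
    rw [Nat.card_congr e.toEquiv, h2, H5.ResidEnd.card_alt_six] at h3
    omega

theorem f4 [IsSimpleGroup G] (h : Lie.Iso2F4 G) : Row G (fun L => ¬ Big L) := by
  intro T L hL hb
  have h1 := H2.TwF.commInv h hL.1
  obtain ⟨F, _, _, hF, h | h⟩ := hb <;> obtain ⟨e⟩ := h
  · have hchar : CharP F 2 := Asm36.charP_of_card hF
    exact NotComm.psl_not_commInv (m := 1) hF (h1.congr e.symm)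
  · have hchar : CharP F 2 := Asm36.charP_of_card hF
    exact NotComm.psl_not_commInv (m := 2) hF (h1.congr e.symm)

theorem hyp36 (hFT : H5.Top.FT.{0}) (hE : IsOfEvenCharacteristic G) : Hyp36 G where
  resid := H4.HypAll.hyp hFT hE
  he := he36

theorem hyp35 [IsSimpleGroup G] (hG : ¬ IsMulCommutative G) (hQ : IsQTKE G) (hFT : H5.Top.FT.{0}) : Hyp35 G where
  resid := H4.HypAll.hyp hFT hQ.2.2
  f4 := f4
  he := he35
  j4 h T _ hL hb := H7.J4Row.no_psl hG hQ h T hL hb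

/-- **S1836** -/
theorem main36 [IsSimpleGroup G] (hQ : IsQTKE G) (hFT0 : H5.Top.FT.{0}) (hFT : H5.Top.FT.{u})
    (hl : IsOnQTKEList G) (T : Sylow 2 G) (L : Subgroup G) (hL : L ∈ calLfMax (T : Subgroup G)) :
    Cfsg.IsLieRankTwoCharTwoLargeField G ∨
    (Cfsg.Spor.IsoM22 G ∨ Cfsg.Spor.IsoM23 G ∨ Cfsg.Spor.IsoJ4 G) ∨ Conc36 L :=
  Asm36.main hFT hQ.2.2 hl (hyp36 hFT0 hQ.2.2) T L ⟨hL.1.1, hL.2⟩

/-- **S1835** -/
theorem main35 [IsSimpleGroup G] (hG : ¬ IsMulCommutative G) (hQ : IsQTKE G) (hFT0 : H5.Top.FT.{0}) (hFT : H5.Top.FT.{u})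
    (hl : IsOnQTKEList G) (T : Sylow 2 G) (L : Subgroup G) (hL : L ∈ calLfMax (T : Subgroup G)) (hn : Big L) :
    (∃ (F : Type) (_ : Field F) (_ : Fintype F), Fintype.card F = 2 ∧ Nonempty ((↥L ⧸ Cfsg.pCore 2 ↥L) ≃* Matrix.ProjectiveSpecialLinearGroup (Fin 4) F)) ∧
    ((∃ (F : Type) (_ : Field F) (_ : Fintype F), Fintype.card F = 2 ∧ Nonempty (G ≃* Matrix.ProjectiveSpecialLinearGroup (Fin 5) F)) ∨ Cfsg.Spor.IsoM24 G) :=
  Asm35.main hFT0 hFT hQ.2.2 hl (hyp35 hG hQ hFT0) T L hL hn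

end Cfsg.Agent.H3.End35
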