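import Mathlib
import Cfsg.Agent.H1.Tight
import Cfsg.Agent.H5.Small
import Cfsg.Agent.TwoFusion.PerfCore

/-!
# Tame normal subgroups and subgroups of odd index (helper3)

`Sit π A N` : `π : Q → P` is onto with solvable kernel, `A` is a normal simple nonsolvable subgroup of `P` with `P/A`
solvable all of whose subgroups of odd index are solvable or `A`; `N` is a perfect normal subgroup of `Q`, `π(N) = A` and
`N ∩ ker π` centralises `N`.  Then `N` is quasisimple, `Q/N` is solvable, and a subgroup of odd index of `Q` is solvable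
or contains `N`.
-/

set_option autoImplicit false

namespace Cfsg.Agent.H3.OddTame

open Subgroup Cfsg Cfsg.Agent.TwoFusion.PerfCore
open scoped commutatorElement

/-- the subgroups of odd index are solvable or everything -/
def OddSolv (A : Type*) [Group A] : Prop := ∀ X : Subgroup A, Odd X.index → Group.IsSolvable X ∨ X = ⊤

theorem OddSolv.congr {A B : Type*} [Group A] [Group B] (e : A ≃* B) (h : OddSolv A) : OddSolv B := by
  intro X hX
  have h1 : (X.comap e.toMonoidHom).index = X.index := index_comap_of_surjective X e.surjective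
  rcases h (X.comap e.toMonoidHom) (h1 ▸ hX) with h2 | h2
  · left
    have h3 : (X.comap e.toMonoidHom).map e.toMonoidHom = X := map_comap_eq_self_of_surjective e.surjective X
    have h4 : Group.IsSolvable ((X.comap e.toMonoidHom).map e.toMonoidHom) :=
      Group.isSolvable_of_surjective (f := e.toMonoidHom.subgroupMap (X.comap e.toMonoidHom))
        (e.toMonoidHom.subgroupMap_surjective _)
    rwa [h3] at h4
  · right
    have h3 : (X.comap e.toMonoidHom).map e.toMonoidHom = X := map_comap_eq_self_of_surjective e.surjective X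
    rw [h2, Subgroup.map_top_of_surjective _ e.surjective] at h3
    exact h3.symm

/-- `|A : A ∩ X|` divides `|P : X|` for `A` normal -/
theorem relIndex_dvd_of_normal {P : Type*} [Group P] [Finite P] (X A : Subgroup P) [A.Normal] :
    X.relIndex A ∣ X.index := by
  have h1 : (A ⊓ X).relIndex A * A.relIndex (A ⊔ X) = (A ⊓ X).relIndex (A ⊔ X) :=
    relIndex_mul_relIndex _ _ _ inf_le_left le_sup_left
  have h2 : (A ⊓ X).relIndex X * X.relIndex (A ⊔ X) = (A ⊓ X).relIndex (A ⊔ X) :=
    relIndex_mul_relIndex _ _ _ inf_le_right le_sup_right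
  rw [inf_relIndex_left] at h1
  rw [inf_relIndex_right] at h2
  have h3 : A.relIndex (A ⊔ X) = A.relIndex X := by rw [relIndex_sup_left]
  have h4 : A.relIndex X ≠ 0 := by
    rw [relIndex]
    exact index_ne_zero_of_finite
  have h5 : X.relIndex A = X.relIndex (A ⊔ X) := by
    rw [h3] at h1
    have h6 : A.relIndex X * X.relIndex A = A.relIndex X * X.relIndex (A ⊔ X) := by
      rw [h2, ← h1, mul_comm]
    exact Nat.eq_of_mul_eq_mul_left (Nat.pos_of_ne_zero h4) h6
  rw [h5, ← relIndex_mul_index (le_sup_right : X ≤ A ⊔ X)]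
  exact dvd_mul_right _ _

structure Sit {Q P : Type*} [Group Q] [Group P] (π : Q →* P) (A : Subgroup P) (N : Subgroup Q) [A.Normal]
    [N.Normal] : Prop where
  surj : Function.Surjective π
  ker : Group.IsSolvable π.ker
  simple : IsSimpleGroup A
  ns : ¬ Group.IsSolvable A
  quot : Group.IsSolvable (P ⧸ A)
  odd : OddSolv A
  perf : ⁅N, N⁆ = N
  map : N.map π = A
  cent : N ⊓ π.ker ≤ centralizer (N : Set Q)

namespace Sit

variable {Q P : Type*} [Group Q] [Group P] [Finite Q] {π : Q →* P} {A : Subgroup P} {N : Subgroup Q}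
  [A.Normal] [N.Normal]

omit [Finite Q] in
theorem solvable_quot (S : Sit π A N) : Group.IsSolvable (Q ⧸ N) := by
  have := S.quot
  have := S.ker
  have hNK : N ⊔ π.ker = A.comap π := by
    rw [← S.map, comap_map_eq]
  have h0 : N ≤ A.comap π := by rw [← hNK]; exact le_sup_left
  let f : (Q ⧸ N) →* (P ⧸ A) := QuotientGroup.map N A π h0
  let g : ↥π.ker →* (Q ⧸ N) := (QuotientGroup.mk' N).comp π.ker.subtype
  refine Group.isSolvable_of_ker_le_range g f ?_
  intro x hx
  obtain ⟨q, rfl⟩ := QuotientGroup.mk_surjective x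
  rw [MonoidHom.mem_ker, QuotientGroup.map_mk, QuotientGroup.eq_one_iff] at hx
  have h1 : q ∈ N ⊔ π.ker := by rw [hNK]; exact hx
  obtain ⟨n, hn, k, hk, rfl⟩ := mem_sup_of_normal_right.1 h1
  refine ⟨⟨k, hk⟩, ?_⟩
  change (QuotientGroup.mk k : Q ⧸ N) = QuotientGroup.mk (n * k)
  rw [QuotientGroup.mk_mul, (QuotientGroup.eq_one_iff n).2 hn, one_mul]

omit [Finite Q] in
theorem quasisimple (S : Sit π A N) : IsQuasisimple N := by
  have hs := S.simple
  let f : ↥N →* ↥A := (π.comp N.subtype).codRestrict A (fun x => by rw [← S.map]; exact ⟨x, x.2, rfl⟩)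
  have hf : Function.Surjective f := by
    rintro ⟨y, hy⟩
    rw [← S.map] at hy
    obtain ⟨x, hx, rfl⟩ := hy
    exact ⟨⟨x, hx⟩, rfl⟩
  have hker : f.ker ≤ center N := by
    intro x hx
    have h1 : π x = 1 := congrArg Subtype.val (MonoidHom.mem_ker.1 hx)
    have h2 := S.cent ⟨x.2, MonoidHom.mem_ker.2 h1⟩
    rw [mem_center_iff]
    intro y
    exact Subtype.ext (mem_centralizer_iff.1 h2 y y.2)
  have hperf : Group.IsPerfect N := by
    rw [Group.isPerfect_def, commutator_def]
    apply map_injective N.subtype_injective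
    rw [map_commutator, ← MonoidHom.range_eq_map, range_subtype]
    exact S.perf
  refine ⟨hperf, ?_⟩
  -- the centre is the kernel
  have hc : center N = f.ker := by
    apply le_antisymm _ hker
    have h1 : ((center N).map f).Normal := (inferInstance : (center N).Normal).map f hf
    rcases h1.eq_bot_or_eq_top with h2 | h2
    · exact (Subgroup.map_eq_bot_iff _).1 h2
    · exfalso
      apply S.ns
      refine Group.isSolvable_of_comm fun a b => ?_
      have ha : a ∈ (center N).map f := by rw [h2]; exact mem_top a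
      obtain ⟨x, hx, rfl⟩ := ha
      obtain ⟨y, rfl⟩ := hf b
      rw [← map_mul, ← map_mul, (mem_center_iff.1 hx y)]
  have e : (N ⧸ center N) ≃* A :=
    (QuotientGroup.quotientMulEquivOfEq hc).trans (QuotientGroup.quotientKerEquivOfSurjective f hf)
  exact (MulEquiv.isSimpleGroup_congr e).2 hs

omit [Finite Q] in
/-- `N / Z(N) ≃ A` -/
theorem nonempty_quot (S : Sit π A N) : Nonempty ((N ⧸ center N) ≃* A) := by
  have hs := S.simple
  let f : ↥N →* ↥A := (π.comp N.subtype).codRestrict A (fun x => by rw [← S.map]; exact ⟨x, x.2, rfl⟩)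
  have hf : Function.Surjective f := by
    rintro ⟨y, hy⟩
    rw [← S.map] at hy
    obtain ⟨x, hx, rfl⟩ := hy
    exact ⟨⟨x, hx⟩, rfl⟩
  have hker : f.ker ≤ center N := by
    intro x hx
    have h1 : π x = 1 := congrArg Subtype.val (MonoidHom.mem_ker.1 hx)
    have h2 := S.cent ⟨x.2, MonoidHom.mem_ker.2 h1⟩
    rw [mem_center_iff]
    intro y
    exact Subtype.ext (mem_centralizer_iff.1 h2 y y.2)
  have hc : center N = f.ker := by
    apply le_antisymm _ hker
    have h1 : ((center N).map f).Normal := (inferInstance : (center N).Normal).map f hf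
    rcases h1.eq_bot_or_eq_top with h2 | h2
    · exact (Subgroup.map_eq_bot_iff _).1 h2
    · exfalso
      apply S.ns
      refine Group.isSolvable_of_comm fun a b => ?_
      have ha : a ∈ (center N).map f := by rw [h2]; exact mem_top a
      obtain ⟨x, hx, rfl⟩ := ha
      obtain ⟨y, rfl⟩ := hf b
      rw [← map_mul, ← map_mul, (mem_center_iff.1 hx y)]
  exact ⟨(QuotientGroup.quotientMulEquivOfEq hc).trans (QuotientGroup.quotientKerEquivOfSurjective f hf)⟩

omit [Finite Q] in
theorem card_center_dvd (S : Sit π A N) : Nat.card (center N) ∣ Nat.card π.ker := by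
  have hs := S.simple
  let f : ↥N →* ↥A := (π.comp N.subtype).codRestrict A (fun x => by rw [← S.map]; exact ⟨x, x.2, rfl⟩)
  have hf : Function.Surjective f := by
    rintro ⟨y, hy⟩
    rw [← S.map] at hy
    obtain ⟨x, hx, rfl⟩ := hy
    exact ⟨⟨x, hx⟩, rfl⟩
  have hc : center N ≤ f.ker := by
    have h1 : ((center N).map f).Normal := (inferInstance : (center N).Normal).map f hf
    rcases h1.eq_bot_or_eq_top with h2 | h2
    · exact (Subgroup.map_eq_bot_iff _).1 h2
    · exfalso
      apply S.ns
      refine Group.isSolvable_of_comm fun a b => ?_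
      have ha : a ∈ (center N).map f := by rw [h2]; exact mem_top a
      obtain ⟨x, hx, rfl⟩ := ha
      obtain ⟨y, rfl⟩ := hf b
      rw [← map_mul, ← map_mul, (mem_center_iff.1 hx y)]
  let g : ↥(center N) →* ↥π.ker :=
    { toFun := fun x => ⟨x.1.1, by
        have := congrArg Subtype.val (MonoidHom.mem_ker.1 (hc x.2))
        exact MonoidHom.mem_ker.2 this⟩
      map_one' := rfl
      map_mul' := fun _ _ => rfl }
  refine card_dvd_of_injective g ?_
  intro x y hxy
  have := congrArg (fun z : ↥π.ker => (z : Q)) hxy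
  exact Subtype.ext (Subtype.ext this)

omit [Finite Q] in
theorem tame (S : Sit π A N) : H1.Tight.Tame N :=
  H1.Tight.Tame.of_quasisimple S.quasisimple S.solvable_quot

/-- **Subgroups of odd index.** -/
theorem odd_index (S : Sit π A N) (Q0 : Subgroup Q) (h : Odd Q0.index) : Group.IsSolvable Q0 ∨ N ≤ Q0 := by
  have := S.solvable_quot
  have hP : Finite P := Finite.of_surjective π S.surj
  set X : Subgroup P := Q0.map π with hX
  have h1 : Odd X.index := Odd.of_dvd_nat h (index_map_dvd Q0 S.surj)
  have h2 : Odd (X.subgroupOf A).index := by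
    have h3 : (X.subgroupOf A).index ∣ X.index := by
      change X.relIndex A ∣ X.index
      exact relIndex_dvd_of_normal X A
    exact Odd.of_dvd_nat h1 h3
  rcases S.odd _ h2 with h3 | h3
  · left
    -- `X` is solvable
    have h4 : Group.IsSolvable X := by
      have := S.quot
      have h5 : Group.IsSolvable ↥(A.subgroupOf X) := by
        let e : ↥(A.subgroupOf X) →* ↥(X.subgroupOf A) :=
          { toFun := fun x => ⟨⟨x.1.1, mem_subgroupOf.1 x.2⟩, mem_subgroupOf.2 x.1.2⟩
            map_one' := rfl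
            map_mul' := fun _ _ => rfl }
        refine Group.isSolvable_of_isSolvable_injective (f := e) ?_
        intro x y hxy
        have := congrArg (fun z : ↥(X.subgroupOf A) => ((z : ↥A) : P)) hxy
        exact Subtype.ext (Subtype.ext this)
      refine Group.isSolvable_of_ker_le_range (A.subgroupOf X).subtype ((QuotientGroup.mk' A).comp X.subtype) ?_
      intro x hx
      rw [MonoidHom.mem_ker] at hx
      have h6 : (x : P) ∈ A := (QuotientGroup.eq_one_iff (x : P)).1 hx
      exact ⟨⟨x, mem_subgroupOf.2 h6⟩, rfl⟩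
    have := S.ker
    let f : ↥Q0 →* ↥X := π.subgroupMap Q0
    have h5 : Group.IsSolvable ↥f.ker := by
      let e : ↥f.ker →* ↥π.ker :=
        { toFun := fun x => ⟨x.1.1, by
            have := congrArg Subtype.val (MonoidHom.mem_ker.1 x.2)
            exact MonoidHom.mem_ker.2 this⟩
          map_one' := rfl
          map_mul' := fun _ _ => rfl }
      refine Group.isSolvable_of_isSolvable_injective (f := e) ?_
      intro x y hxy
      have := congrArg (fun z : ↥π.ker => (z : Q)) hxy
      exact Subtype.ext (Subtype.ext this)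
    exact Group.isSolvable_of_ker_le_range f.ker.subtype f (by rw [range_subtype])
  · right
    have hAX : A ≤ X := subgroupOf_eq_top.1 h3
    have hAp : ⁅A, A⁆ = A := by rw [← S.map, ← map_commutator, S.perf]
    set R := TwoFusion.PerfCore.perf Q0 with hR
    have hRp : ⁅R, R⁆ = R := perf_perfect Q0
    have hRN : R ≤ N := H1.Tight.le_of_perfect_of_quot N hRp
    have hmap : A ≤ R.map π := by
      rw [hR, map_perf]
      exact le_perf hAX hAp
    have hsup : N ≤ R ⊔ (N ⊓ π.ker) := by
      intro n hn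
      have h4 : π n ∈ R.map π := hmap (by rw [← S.map]; exact ⟨n, hn, rfl⟩)
      obtain ⟨r, hr, he⟩ := h4
      have e : n = r * (r⁻¹ * n) := by group
      rw [e]
      have h5 : r⁻¹ * n ∈ π.ker := by
        rw [MonoidHom.mem_ker, map_mul, map_inv, he, inv_mul_cancel]
      exact mul_mem_sup hr (mem_inf.2 ⟨mul_mem (inv_mem (hRN hr)) hn, h5⟩)
    have hcomm : N ≤ R := by
      rw [← S.perf, commutator_le]
      intro a ha b hb
      have hcent : ∀ z ∈ N ⊓ π.ker, ∀ n ∈ N, z * n = n * z := fun z hz n hn =>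
        (mem_centralizer_iff.1 (S.cent hz) n hn).symm
      have hmem : ∀ n ∈ N, ∃ r ∈ R, ∃ z ∈ N ⊓ π.ker, n = r * z := by
        intro n hn
        have h4 : n ∈ R ⊔ (N ⊓ π.ker) := hsup hn
        have h5 : R ≤ normalizer ((N ⊓ π.ker : Subgroup Q) : Set Q) := by
          rw [Subgroup.normalizer_eq_top]; exact le_top
        have h6 : n ∈ ((R ⊔ (N ⊓ π.ker) : Subgroup Q) : Set Q) := h4
        rw [Subgroup.coe_mul_of_left_le_normalizer_right _ _ h5, Set.mem_mul] at h6
        obtain ⟨r, hr, z, hz, he⟩ := h6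
        exact ⟨r, hr, z, hz, he.symm⟩
      obtain ⟨r, hr, z, hz, rfl⟩ := hmem a ha
      obtain ⟨s, hs, w, hw, rfl⟩ := hmem b hb
      have e : ⁅r * z, s * w⁆ = ⁅r, s⁆ := by
        rw [commutatorElement_def, commutatorElement_def]
        have c1 := hcent z hz s (hRN hs)
        have c2 := hcent w hw r (hRN hr)
        have c3 := hcent z hz w hw.1
        have c4 := hcent w hw s (hRN hs)
        have c5 := hcent z hz r (hRN hr)
        calc r * z * (s * w) * (r * z)⁻¹ * (s * w)⁻¹
            = r * (z * s) * w * z⁻¹ * r⁻¹ * w⁻¹ * s⁻¹ := by group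
          _ = r * s * (z * w) * z⁻¹ * r⁻¹ * w⁻¹ * s⁻¹ := by rw [c1]; group
          _ = r * s * w * r⁻¹ * w⁻¹ * s⁻¹ := by rw [c3]; group
          _ = r * s * (r⁻¹ * (r * w) * r⁻¹) * w⁻¹ * s⁻¹ := by group
          _ = r * s * (r⁻¹ * (w * r) * r⁻¹) * w⁻¹ * s⁻¹ := by rw [c2]
          _ = r * s * r⁻¹ * s⁻¹ := by group
      rw [e, ← hRp]
      exact commutator_mem_commutator hr hs
    exact hcomm.trans (perf_le Q0)

/-- the 2-core is trivial if the kernel has odd order -/
theorem pCore_eq_bot (S : Sit π A N) (hk : Odd (Nat.card π.ker)) : pCore 2 N = ⊥ := by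
  have h2 : Fact (Nat.Prime 2) := ⟨Nat.prime_two⟩
  have hs := S.simple
  let f : ↥N →* ↥A := (π.comp N.subtype).codRestrict A (fun x => by rw [← S.map]; exact ⟨x, x.2, rfl⟩)
  have hf : Function.Surjective f := by
    rintro ⟨y, hy⟩
    rw [← S.map] at hy
    obtain ⟨x, hx, rfl⟩ := hy
    exact ⟨⟨x, hx⟩, rfl⟩
  have hP : Finite P := Finite.of_surjective π S.surj
  have h1 : ((pCore 2 N).map f).Normal := (Lib.Cores.pCore_normal 2).map f hf
  have h3 : IsPGroup 2 ((pCore 2 N).map f) := (Lib.Cores.pCore_isPGroup 2).map f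
  rcases h1.eq_bot_or_eq_top with h4 | h4
  · have h5 := (Subgroup.map_eq_bot_iff _).1 h4
    have h6 : IsPGroup 2 ↥(pCore 2 N) := Lib.Cores.pCore_isPGroup 2
    obtain ⟨n, hn⟩ := IsPGroup.iff_card.1 h6
    have h7 : Nat.card ↥(pCore 2 N) ∣ Nat.card π.ker := by
      let g : ↥(pCore 2 N) →* ↥π.ker :=
        { toFun := fun x => ⟨x.1.1, by
            have := congrArg Subtype.val (MonoidHom.mem_ker.1 (h5 x.2))
            exact MonoidHom.mem_ker.2 this⟩
          map_one' := rfl
          map_mul' := fun _ _ => rfl }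
      refine card_dvd_of_injective g ?_
      intro x y hxy
      have := congrArg (fun z : ↥π.ker => (z : Q)) hxy
      exact Subtype.ext (Subtype.ext this)
    have h8 : n = 0 := by
      by_contra hn0
      have h9 : 2 ∣ Nat.card ↥(pCore 2 N) := by rw [hn]; exact dvd_pow_self 2 hn0
      have h10 := h9.trans h7
      rw [← Nat.not_even_iff_odd, even_iff_two_dvd] at hk
      exact hk h10
    rw [h8, pow_zero] at hn
    exact Subgroup.card_eq_one.1 hn
  · exfalso
    apply S.ns
    rw [h4] at h3
    have h5 : IsPGroup 2 A := h3.of_equiv topEquiv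
    have := h5.isNilpotent
    infer_instance

end Sit

/-- **The row.** -/
theorem row {G : Type*} [Group G] [Finite G] (T : Sylow 2 G) {L M : Subgroup G} (hL : L ∈ calL (T : Subgroup G))
    (hTM : (T : Subgroup G) ≤ M) (hLM : L ≤ M) {Q P : Type*} [Group Q] [Group P] {π : Q →* P} {A : Subgroup P}
    {N : Subgroup Q} [A.Normal] [N.Normal] (S : Sit π A N) (hk : Odd (Nat.card π.ker)) (ψ : M →* Q) (hψ : Function.Surjective ψ)
    (hker : IsPGroup 2 ψ.ker) : L ⊔ T ≤ normalizer (L : Set G) ∧ Nonempty ((L ⧸ pCore 2 L) ≃* N) := by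
  have hQ : Finite Q := Finite.of_surjective ψ hψ
  obtain ⟨h1, h2, -⟩ := H1.Tight.calL_of_odd T hL hTM hLM ψ hψ hker S.tame (S.pCore_eq_bot hk) S.odd_index
  exact ⟨h1, h2⟩

end Cfsg.Agent.H3.OddTame
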