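import Cfsg.Agent.H3.M24Loc
import Cfsg.Agent.H3.OddTame
import Cfsg.Agent.SporadicA.MathieuRecog

/-!
# Subgroups of `M23` of odd index with `O_2 ≠ 1` (helper3)

`main`: a subgroup of the stabiliser in `M24` of the point `∞`, of order divisible by 128, with `O_2 ≠ 1`, fixes an octad
or a set of four points through `∞`.
-/

set_option autoImplicit false

open MulAction Subgroup
open scoped Pointwise

namespace Cfsg.Agent.H3.M23Loc

open Cfsg Cfsg.Agent.H3.M24Loc
open Cfsg.Agent.KFacts.M24Two.Count (exists_frame_map F0 p7 O0 O0_mem)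

/-- the stabiliser of an octad and a point in it is transitive on the complement -/
theorem trans_out_fix {o : Finset GolayPt} (ho : o ∈ octads) {p x y : GolayPt} (hp : p ∈ o) (hx : x ∉ o) (hy : y ∉ o) :
    ∃ g ∈ stabilizer M24 o ⊓ stabilizer M24 p, g • x = y := by
  obtain ⟨a, ha0, ha1, ha2⟩ := exists_six ho hp
  obtain ⟨g, hg1, hg2, hg3⟩ := exists_frame_map ho ha1 ha2 hx
  obtain ⟨h, hh1, hh2, hh3⟩ := exists_frame_map ho ha1 ha2 hy
  refine ⟨h * g⁻¹, mem_inf.2 ⟨?_, ?_⟩, ?_⟩
  · have h1 : g⁻¹ • o = O0 := by rw [inv_smul_eq_iff, hg3]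
    rw [mem_stabilizer_iff, mul_smul, h1, hh3]
  · rw [mem_stabilizer_iff, mul_smul]
    conv_lhs => rw [← ha0, ← hg1 0 (by norm_num), inv_smul_smul, hh1 0 (by norm_num), ha0]
  · rw [mul_smul, ← hg2, inv_smul_smul, hh2]

/-- a 2-element of `M24` fixing more than 9 points is trivial -/
theorem eq_one_of_fix {C : Finset GolayPt} (hC : 9 < C.card) : ∀ (k : ℕ) {t : M24}, t ^ 2 ^ k = 1 →
    (∀ x ∈ C, t • x = x) → t = 1 := by
  intro k
  induction k with
  | zero => intro t ht _; simpa using ht
  | succ k ih =>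
    intro t ht h
    have h2 : t ^ 2 = 1 := ih (by rw [← pow_mul, ← pow_succ']; exact ht) fun x hx => by
      rw [pow_two, mul_smul, h x hx, h x hx]
    have h3 := fix_nine t (fun x => by rw [← mul_smul, ← pow_two, h2, one_smul]) (by
      refine lt_of_lt_of_le hC (Finset.card_le_card fun x hx => ?_)
      exact Finset.mem_filter.2 ⟨Finset.mem_univ _, h x hx⟩)
    apply Subtype.ext
    apply Equiv.ext
    intro y
    exact h3 y

theorem card_stab : Nat.card (stabilizer M24 (none : GolayPt)) = 10200960 := by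
  have h1 : stabilizer M24 (none : GolayPt) = (Spor.M23).subgroupOf M24 := by
    ext g
    rw [mem_subgroupOf, mem_stabilizer_iff]
    constructor
    · intro h
      exact mem_inf.2 ⟨g.2, h⟩
    · intro h
      exact (mem_inf.1 h).2
  have h2 : Spor.M23 ≤ M24 := inf_le_left
  rw [h1, Nat.card_congr (subgroupOfEquivOfLe h2).toEquiv, SporadicA.MathieuRecog.card_M23]

theorem odd_relIndex {T K : Subgroup M24} (hT : Nat.card T = 128) (hTK : T ≤ K)
    (hK : K ≤ stabilizer M24 (none : GolayPt)) : Odd (T.relIndex K) := by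
  have h1 := card_mul_index (T.subgroupOf K)
  rw [Nat.card_congr (subgroupOfEquivOfLe hTK).toEquiv, hT] at h1
  have h2 : 128 * T.relIndex K ∣ 10200960 := by
    rw [← card_stab]
    exact h1 ▸ Subgroup.card_dvd_of_le hK
  have h3 : T.relIndex K ∣ 79695 := by
    obtain ⟨m, hm⟩ := h2
    exact ⟨m, by
      have : 128 * 79695 = 128 * (T.relIndex K * m) := by rw [← mul_assoc, ← hm]
      exact Nat.eq_of_mul_eq_mul_left (by norm_num) this⟩
  exact Odd.of_dvd_nat (by decide) h3

/-- the fixed points of an involution with a fixed point -/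
theorem exists_octad_fix {u : M24} (hu : u * u = 1) (hu1 : u ≠ 1) {p : GolayPt} (hp : u • p = p) :
    ∃ o ∈ octads, ∀ q : GolayPt, u • q = q ↔ q ∈ o := by
  obtain ⟨g, hg⟩ := KFacts.M24Two.Count.conj_z_of_fix hu hu1 hp
  refine ⟨g⁻¹ • O0, smul_octads _ O0_mem, fun q => ?_⟩
  have h1 := KFacts.M24Two.Count.z_fix_iff (g • q)
  rw [← hg, mul_smul, mul_smul, inv_smul_smul, smul_left_cancel_iff] at h1
  rw [h1, ← Finset.smul_mem_smul_finset_iff g (s := g⁻¹ • O0), smul_inv_smul]

/-- a group element permuting the points of a finset stabilises it -/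
theorem mem_stab_of_forall {g : M24} {o : Finset GolayPt} (h : ∀ x ∈ o, g • x ∈ o) : g ∈ stabilizer M24 o := by
  rw [mem_stabilizer_iff]
  apply Finset.eq_of_subset_of_card_le
  · intro c hc
    obtain ⟨d, hd, rfl⟩ := Finset.mem_smul_finset.1 hc
    exact h d hd
  · exact (Finset.card_smul_finset g o).ge

/-- the orbits of a normal subgroup have size dividing that of the big orbit -/
theorem card_orb_dvd_orb {H R : Subgroup M24} (hRH : R ≤ H) (hRn : ∀ h ∈ H, ∀ r ∈ R, h * r * h⁻¹ ∈ R) (x : GolayPt) :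
    (SporadicStructure.M24IndexAbs.orb R x).card ∣ (SporadicStructure.M24IndexAbs.orb H x).card := by
  rw [SylTrans.card_orb_eq_relIndex, SylTrans.card_orb_eq_relIndex]
  have hn : (R.subgroupOf H).Normal := ⟨fun r hr h => by
    rw [mem_subgroupOf] at hr ⊢
    exact hRn h h.2 r hr⟩
  have h1 := OddTame.relIndex_dvd_of_normal ((stabilizer M24 x).subgroupOf H) (R.subgroupOf H)
  rwa [relIndex_subgroupOf hRH] at h1

/-- **Subgroups of `M23` of odd index with `O_2 ≠ 1`** -/
theorem main (H : Subgroup M24) (hH : H ≤ stabilizer M24 (none : GolayPt)) (h2 : 128 ∣ Nat.card H) (hO : pCore 2 H ≠ ⊥) :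
    (∃ o ∈ octads, (none : GolayPt) ∈ o ∧ H ≤ stabilizer M24 o) ∨
      ∃ t : Finset GolayPt, t.card = 4 ∧ (none : GolayPt) ∈ t ∧ H ≤ stabilizer M24 t := by
  have hp2 : Fact (Nat.Prime 2) := ⟨Nat.prime_two⟩
  obtain ⟨T₀⟩ : Nonempty (Sylow 2 H) := inferInstance
  have hT₀ : Nat.card T₀ = 128 := by
    obtain ⟨n, hn⟩ := IsPGroup.iff_card.1 T₀.isPGroup'
    have h3 : 2 ^ 7 ∣ Nat.card T₀ := T₀.pow_dvd_card_of_pow_dvd_card h2
    have h4 : Nat.card T₀ ∣ 10200960 := by
      rw [← card_stab]
      exact (card_subgroup_dvd_card _).trans (Subgroup.card_dvd_of_le hH)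
    have h5 : n ≤ 7 := by
      by_contra hc
      have h6 : 2 ^ 8 ∣ 10200960 := (pow_dvd_pow 2 (by omega)).trans (hn ▸ h4)
      revert h6
      decide
    have h6 : 7 ≤ n := by
      rw [hn] at h3
      exact (Nat.pow_dvd_pow_iff_le_right (by norm_num)).1 h3
    rw [hn, show n = 7 by omega]
    norm_num
  set T : Subgroup M24 := (T₀ : Subgroup H).map H.subtype with hTdef
  have hT : Nat.card T = 128 := by
    rw [hTdef, Nat.card_congr ((T₀ : Subgroup H).equivMapOfInjective _ H.subtype_injective).toEquiv.symm]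
    exact hT₀
  -- the normal 2-subgroup
  set R : Subgroup M24 := (pCore 2 H).map H.subtype with hR
  have hRH : R ≤ H := map_subtype_le _
  have hRn : ∀ h ∈ H, ∀ r ∈ R, h * r * h⁻¹ ∈ R := by
    rintro h hh _ ⟨r, hr, rfl⟩
    exact ⟨⟨h, hh⟩ * r * ⟨h, hh⟩⁻¹, (Lib.Cores.pCore_normal 2).conj_mem r hr ⟨h, hh⟩, rfl⟩
  have hRp : IsPGroup 2 R := (Lib.Cores.pCore_isPGroup 2).map _
  have hcore := Lib.Cores.pCore_le_sylow T₀
  -- the central involution
  have hex : ∃ u ∈ R, u * u = 1 ∧ u ≠ 1 ∧ ∀ t ∈ T, t * u = u * t := by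
    have hn : ((pCore 2 H).subgroupOf (T₀ : Subgroup H)).Normal := (Lib.Cores.pCore_normal 2).subgroupOf _
    obtain ⟨u, hu, huc, huo⟩ := Transfer.PGroupNormal.exists_mem_inf_center_orderOf T₀.isPGroup'
      ((pCore 2 H).subgroupOf (T₀ : Subgroup H)) (by
        intro he
        rw [subgroupOf_eq_bot] at he
        exact hO (le_bot_iff.1 ((le_inf le_rfl hcore).trans (disjoint_iff_inf_le.1 he))))
    refine ⟨((u : H) : M24), ⟨(u : H), mem_subgroupOf.1 hu, rfl⟩, ?_, ?_, ?_⟩
    · have h3 := pow_orderOf_eq_one u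
      rw [huo, pow_two] at h3
      exact congrArg (fun x : T₀ => ((x : H) : M24)) h3
    · intro he
      have h3 : u = 1 := Subtype.ext (Subtype.ext he)
      rw [h3, orderOf_one] at huo
      omega
    · rintro _ ⟨t, ht, rfl⟩
      have h3 := mem_center_iff.1 huc ⟨t, ht⟩
      exact congrArg (fun x : T₀ => ((x : H) : M24)) h3
  obtain ⟨u, huR, hu2, hu1, huT⟩ := hex
  have hunone : u • (none : GolayPt) = none := mem_stabilizer_iff.1 (hH (hRH huR))
  obtain ⟨o, ho, hfix⟩ := exists_octad_fix hu2 hu1 hunone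
  have hno : (none : GolayPt) ∈ o := (hfix _).1 hunone
  -- elements commuting with `u` fix the octad
  have hcomm : ∀ g : M24, g * u = u * g → g ∈ stabilizer M24 o := fun g hg => mem_stab_of_forall fun x hx => by
    rw [← hfix] at hx ⊢
    rw [← mul_smul, ← hg, mul_smul, hx]
  have hTo : T ≤ stabilizer M24 o := fun t ht => hcomm t (huT t ht)
  have hTH : T ≤ H := map_subtype_le _
  have hRT : R ≤ T := map_mono hcore
  by_cases hpres : ∀ h ∈ H, ∀ x ∈ o, h • x ∈ o
  · left
    exact ⟨o, ho, hno, fun h hh => mem_stab_of_forall (hpres h hh)⟩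
  · right
    push Not at hpres
    obtain ⟨h₀, hh₀, x₀, hx₀, hx₀'⟩ := hpres
    set y₀ := h₀ • x₀ with hy₀
    set Om := SporadicStructure.M24IndexAbs.orb H y₀ with hOm
    have hout : ∀ y : GolayPt, y ∉ o → y ∈ Om := by
      intro y hy
      obtain ⟨t, ht, h3⟩ := SylTrans.exists_smul_eq (K := stabilizer M24 o ⊓ stabilizer M24 (none : GolayPt))
        (le_inf hTo (hTH.trans hH)) (odd_relIndex hT (le_inf hTo (hTH.trans hH)) inf_le_right) (C := oᶜ) (k := 4)
        (by rw [Finset.card_compl, card_octad ho, card24]; norm_num)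
        (fun g hg z hz => by
          rw [Finset.mem_compl] at hz ⊢
          rwa [← mem_stabilizer_iff.1 (mem_inf.1 hg).1, Finset.smul_mem_smul_finset_iff])
        (fun x hx y hy => trans_out_fix ho hno (Finset.mem_compl.1 hx) (Finset.mem_compl.1 hy))
        (Finset.mem_compl.2 hx₀') (Finset.mem_compl.2 hy)
      exact SporadicStructure.M24IndexAbs.mem_orb.2 ⟨t, hTH ht, h3⟩
    have hx₀O : x₀ ∈ Om := SporadicStructure.M24IndexAbs.mem_orb.2 ⟨h₀⁻¹, H.inv_mem hh₀, by rw [hy₀, inv_smul_smul]⟩
    have hnO : (none : GolayPt) ∉ Om := by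
      intro h
      obtain ⟨k, hk, h3⟩ := SporadicStructure.M24IndexAbs.mem_orb.1 h
      have h4 : y₀ = k⁻¹ • (none : GolayPt) := by rw [← h3, inv_smul_smul]
      rw [mem_stabilizer_iff.1 (hH (H.inv_mem hk))] at h4
      exact hx₀' (h4 ▸ hno)
    have hOH : ∀ h ∈ H, ∀ y ∈ Om, h • y ∈ Om := fun h hh y hy => SporadicStructure.M24IndexAbs.smul_mem_orb hh hy
    have hocard : (oᶜ : Finset GolayPt).card = 16 := by
      rw [Finset.card_compl, card_octad ho, card24]
    have hlow : 17 ≤ Om.card := by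
      have h3 : insert x₀ oᶜ ⊆ Om := by
        intro y hy
        rcases Finset.mem_insert.1 hy with rfl | hy
        · exact hx₀O
        · exact hout y (Finset.mem_compl.1 hy)
      have h4 := Finset.card_le_card h3
      rwa [Finset.card_insert_of_notMem (fun h => Finset.mem_compl.1 h hx₀), hocard] at h4
    have hup : Om.card ≤ 23 := by
      have h3 : insert none Om ⊆ (Finset.univ : Finset GolayPt) := Finset.subset_univ _
      have h4 := Finset.card_le_card h3
      rw [Finset.card_insert_of_notMem hnO, Finset.card_univ (α := GolayPt), card24] at h4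
      omega
    -- all the orbits of `R` on `Om` have size dividing `|Om|`
    have hOm2 : ∀ y ∈ Om, SporadicStructure.M24IndexAbs.orb H y = Om := by
      intro y hy
      obtain ⟨k, hk, rfl⟩ := SporadicStructure.M24IndexAbs.mem_orb.1 hy
      ext z
      rw [hOm, SporadicStructure.M24IndexAbs.mem_orb, SporadicStructure.M24IndexAbs.mem_orb]
      constructor
      · rintro ⟨g, hg, rfl⟩
        exact ⟨g * k, H.mul_mem hg hk, mul_smul _ _ _⟩
      · rintro ⟨g, hg, rfl⟩
        exact ⟨g * k⁻¹, H.mul_mem hg (H.inv_mem hk), by rw [mul_smul, inv_smul_smul]⟩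
    have hdvd : ∀ y ∈ Om, (SporadicStructure.M24IndexAbs.orb R y).card ∣ Om.card := by
      intro y hy
      have := card_orb_dvd_orb hRH hRn y
      rwa [hOm2 y hy] at this
    have hpow : ∀ y : GolayPt, ∃ k, (SporadicStructure.M24IndexAbs.orb R y).card = 2 ^ k := by
      intro y
      obtain ⟨n, hn⟩ := IsPGroup.iff_card.1 hRp
      have h3 := SporadicStructure.M24IndexAbs.card_orb_dvd R y
      rw [hn] at h3
      obtain ⟨k, -, hk⟩ := (Nat.dvd_prime_pow Nat.prime_two).1 h3
      exact ⟨k, hk⟩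
    have huy : u • y₀ ≠ y₀ := fun h => hx₀' ((hfix _).1 h)
    have hy₀O : y₀ ∈ Om := hout y₀ hx₀'
    have heven : 2 ∣ Om.card := by
      obtain ⟨k, hk⟩ := hpow y₀
      rcases Nat.eq_zero_or_pos k with rfl | hk0
      · exfalso
        rw [pow_zero, Finset.card_eq_one] at hk
        obtain ⟨a, ha⟩ := hk
        have h3 : y₀ ∈ SporadicStructure.M24IndexAbs.orb R y₀ :=
          SporadicStructure.M24IndexAbs.mem_orb.2 ⟨1, R.one_mem, one_smul _ _⟩
        have h4 : u • y₀ ∈ SporadicStructure.M24IndexAbs.orb R y₀ :=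
          SporadicStructure.M24IndexAbs.mem_orb.2 ⟨u, huR, rfl⟩
        rw [ha, Finset.mem_singleton] at h3 h4
        exact huy (h4.trans h3.symm)
      · exact (dvd_pow_self 2 hk0.ne').trans (hk ▸ hdvd y₀ hy₀O)
    by_cases h20 : Om.card = 20
    · refine ⟨Omᶜ, by rw [Finset.card_compl, h20, card24], Finset.mem_compl.2 hnO, fun h hh => mem_stab_of_forall ?_⟩
      intro x hx
      rw [Finset.mem_compl] at hx ⊢
      intro h3
      have h4 := hOH h⁻¹ (H.inv_mem hh) _ h3
      rw [inv_smul_smul] at h4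
      exact hx h4
    · exfalso
      have h4n : ¬ 4 ∣ Om.card := by omega
      have h22 : Om.card ≤ 22 := by omega
      have htwo : ∀ y ∈ Om, (SporadicStructure.M24IndexAbs.orb R y).card ≤ 2 := by
        intro y hy
        obtain ⟨k, hk⟩ := hpow y
        have hk2 : k < 2 := by
          by_contra hc
          exact h4n ((pow_dvd_pow 2 (by omega : 2 ≤ k)).trans (hk ▸ hdvd y hy))
        rw [hk]
        calc 2 ^ k ≤ 2 ^ 1 := Nat.pow_le_pow_right (by norm_num) (by omega)
          _ = 2 := by norm_num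
      apply hx₀'
      refine (mem_stabilizer_iff.1 (hcomm h₀ ?_)) ▸ Finset.smul_mem_smul_finset hx₀
      set v := h₀ * u * h₀⁻¹ with hv
      have hvR : v ∈ R := hRn h₀ hh₀ u huR
      have hvfix : ∀ q : GolayPt, v • q = q ↔ q ∈ h₀ • o := by
        intro q
        rw [hv, mul_smul, mul_smul, smul_eq_iff_eq_inv_smul, hfix, Finset.inv_smul_mem_iff]
      have hv2 : u * v⁻¹ = 1 := by
        obtain ⟨n, hn⟩ := IsPGroup.iff_card.1 hRp
        have hmem : u * v⁻¹ ∈ R := R.mul_mem huR (R.inv_mem hvR)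
        have h3 : (u * v⁻¹) ^ 2 ^ n = 1 := by
          rw [← hn]
          exact congrArg Subtype.val (pow_card_eq_one' (x := (⟨u * v⁻¹, hmem⟩ : R)))
        refine eq_one_of_fix (C := oᶜ ∩ (h₀ • o)ᶜ) ?_ n h3 ?_
        · have h5 : oᶜ ∪ (h₀ • o)ᶜ ⊆ Om := by
            intro y hy
            rcases Finset.mem_union.1 hy with hy | hy
            · exact hout y (Finset.mem_compl.1 hy)
            · have h6 : h₀⁻¹ • y ∉ o := by
                rw [Finset.inv_smul_mem_iff]
                exact Finset.mem_compl.1 hy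
              have h7 := hOH h₀ hh₀ _ (hout _ h6)
              rwa [smul_inv_smul] at h7
          have h6 := Finset.card_le_card h5
          have h7 := Finset.card_union_add_card_inter oᶜ (h₀ • o)ᶜ
          have h8 : ((h₀ • o)ᶜ : Finset GolayPt).card = 16 := by
            rw [Finset.card_compl, Finset.card_smul_finset, card_octad ho, card24]
          omega
        · intro x hx
          rw [Finset.mem_inter, Finset.mem_compl, Finset.mem_compl] at hx
          have hux : u • x ≠ x := fun h => hx.1 ((hfix _).1 h)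
          have hvx : v⁻¹ • x ≠ x := fun h => hx.2 ((hvfix _).1 (by rw [inv_smul_eq_iff] at h; exact h.symm))
          -- the orbit has only two points
          have h9 : u⁻¹ • x = v⁻¹ • x := by
            by_contra hne
            have hui : u⁻¹ • x ≠ x := fun h => hux (by rw [inv_smul_eq_iff] at h; exact h.symm)
            have h10 : ({x, u⁻¹ • x, v⁻¹ • x} : Finset GolayPt) ⊆ SporadicStructure.M24IndexAbs.orb R x := by
              intro z hz
              rw [SporadicStructure.M24IndexAbs.mem_orb]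
              rcases Finset.mem_insert.1 hz with rfl | hz
              · exact ⟨1, R.one_mem, one_smul _ _⟩
              rcases Finset.mem_insert.1 hz with rfl | hz
              · exact ⟨u⁻¹, R.inv_mem huR, rfl⟩
              · rw [Finset.mem_singleton.1 hz]
                exact ⟨v⁻¹, R.inv_mem hvR, rfl⟩
            have h11 := Finset.card_le_card h10
            rw [Finset.card_eq_three.2 ⟨x, u⁻¹ • x, v⁻¹ • x, hui.symm, hvx.symm, hne, rfl⟩] at h11
            have := htwo x (hout x hx.1)
            omega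
          rw [mul_smul, ← h9, smul_inv_smul]
      have h12 : u = v := by rwa [mul_inv_eq_one] at hv2
      have h13 : v * h₀ = h₀ * u := by
        rw [hv]
        group
      rw [← h13, ← h12]

end Cfsg.Agent.H3.M23Loc
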