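import Mathlib
import Cfsg.Agent.H3.OddTame

/-!
# Subgroups of odd index of `L₃(2)` and `A₆` (helper3)
-/

set_option autoImplicit false

namespace Cfsg.Agent.H3.OddSmall

open Subgroup Cfsg Cfsg.Agent.H3.OddTame

variable {A : Type*} [Group A] [Finite A]

/-- the order of a simple group divides `n!` for a subgroup of index `n > 1` -/
theorem card_dvd_factorial [hs : IsSimpleGroup A] {X : Subgroup A} (hX : X ≠ ⊤) : Nat.card A ∣ X.index.factorial := by
  classical
  let ρ : A →* Equiv.Perm (A ⧸ X) := MulAction.toPermHom _ _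
  have hk : ρ.ker ≤ X := by
    intro a ha
    have h1 : ρ a = 1 := ha
    have h2 := congrArg (fun f : Equiv.Perm (A ⧸ X) => f (QuotientGroup.mk 1)) h1
    have h3 : (QuotientGroup.mk (a * 1) : A ⧸ X) = QuotientGroup.mk 1 := h2
    rw [QuotientGroup.eq, mul_one] at h3
    simpa using h3
  have hb : ρ.ker = ⊥ := by
    rcases (inferInstance : ρ.ker.Normal).eq_bot_or_eq_top with h | h
    · exact h
    · exact absurd (top_le_iff.1 (h ▸ hk)) hX
  have h1 := card_dvd_of_injective ρ ((MonoidHom.ker_eq_bot_iff ρ).1 hb)
  rwa [Nat.card_perm] at h1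

theorem oddSolv_168 (h : Nat.card A = 168) : OddSolv A := by
  intro X hX
  have h1 := X.card_mul_index
  rw [h] at h1
  by_cases h2 : X.index = 1
  · exact Or.inr (index_eq_one.1 h2)
  · left
    have h3 : 3 ≤ X.index := by
      obtain ⟨k, hk⟩ := hX
      omega
    refine H5.Small.solvable_of_lt _ rfl ?_
    by_contra h4
    have : 60 * 3 ≤ Nat.card X * X.index := Nat.mul_le_mul (by omega) h3
    omega

theorem oddSolv_360 [IsSimpleGroup A] (h : Nat.card A = 360) : OddSolv A := by
  intro X hX
  have h1 := X.card_mul_index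
  rw [h] at h1
  by_cases h2 : X = ⊤
  · exact Or.inr h2
  · left
    have hd : X.index ∣ 360 := ⟨Nat.card X, by rw [← h1, mul_comm]⟩
    have hle : X.index ≤ 360 := Nat.le_of_dvd (by norm_num) hd
    have h3 := card_dvd_factorial h2
    rw [h] at h3
    have h4 : 6 ≤ X.index := by
      by_contra h4
      have h5 : X.index.factorial ∣ Nat.factorial 5 := Nat.factorial_dvd_factorial (by omega)
      have h6 := h3.trans h5
      revert h6
      decide
    by_cases h5 : X.index = 6
    · exfalso
      rw [h5] at hX
      exact absurd hX (by decide)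
    have h7 : Nat.card X < 60 := by
      by_contra h7
      have : 60 * 7 ≤ Nat.card X * X.index := Nat.mul_le_mul (by omega) (by omega)
      omega
    exact H5.Small.solvable_of_lt _ rfl h7

end Cfsg.Agent.H3.OddSmall
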