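import Mathlib
import Cfsg.Agent.H3.OddTame

/-!
# Examples of the situation `OddTame.Sit` (helper3)

* `of_cyclic` : `π : Q → P` with cyclic kernel;
* `of_prod` : `Q = X × Y`, `X` simple, `Y` solvable.
-/

set_option autoImplicit false

namespace Cfsg.Agent.H3.SitLib

open Subgroup Cfsg Cfsg.Agent.H3.OddTame
open scoped commutatorElement

theorem perf_of_simple {P : Type*} [Group P] {A : Subgroup P} (hs : IsSimpleGroup A) (hn : ¬ Group.IsSolvable A) :
    ⁅A, A⁆ = A := by
  have h1 := H5.Small.quasi_of_simple (X := A) hn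
  have h2 := h1.1
  rw [Group.isPerfect_def, commutator_def] at h2
  have h3 := congrArg (Subgroup.map A.subtype) h2
  rw [map_commutator, ← MonoidHom.range_eq_map, range_subtype] at h3
  exact h3

section cyclic

variable {Q P : Type*} [Group Q] [Group P] {π : Q →* P} {A : Subgroup P}

theorem commutator_mem_centralizer (K : Subgroup Q) [K.Normal] [IsCyclic K] (a b : Q) :
    ⁅a, b⁆ ∈ centralizer (K : Set Q) := by
  have hcomm : ∀ a b : MulAut K, a * b = b * a := by
    intro a b
    apply (IsCyclic.mulAutMulEquiv K).injective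
    rw [map_mul, map_mul, mul_comm]
  rw [mem_centralizer_iff]
  intro m hm
  have h2 : (MulAut.conjNormal (H := K) ⁅a, b⁆) = 1 := by
    rw [map_commutatorElement, commutatorElement_def, hcomm (MulAut.conjNormal a) (MulAut.conjNormal b)]
    group
  have h3 := congrArg (fun f : MulAut K => ((f ⟨m, hm⟩ : K) : Q)) h2
  change ((MulAut.conjNormal ⁅a, b⁆ ⟨m, hm⟩ : K) : Q) = m at h3
  rw [MulAut.conjNormal_apply] at h3
  exact (mul_inv_eq_iff_eq_mul.1 h3).symm

theorem of_cyclic [A.Normal] (hπ : Function.Surjective π) [IsCyclic π.ker] (hs : IsSimpleGroup A)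
    (hn : ¬ Group.IsSolvable A) (hq : Group.IsSolvable (P ⧸ A)) (ho : OddSolv A) :
    Sit π A ⁅A.comap π, A.comap π⁆ := by
  have hAp := perf_of_simple hs hn
  set N1 : Subgroup Q := A.comap π with hN1
  have hm1 : N1.map π = A := map_comap_eq_self_of_surjective hπ A
  have hmap : (⁅N1, N1⁆ : Subgroup Q).map π = A := by
    rw [map_commutator, hm1, hAp]
  have hKc : ∀ n ∈ (⁅N1, N1⁆ : Subgroup Q), ∀ z ∈ π.ker, z * n = n * z := by
    intro n hn z hz
    have h1 : (⁅N1, N1⁆ : Subgroup Q) ≤ centralizer (π.ker : Set Q) := by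
      rw [commutator_le]
      intro a _ b _
      exact commutator_mem_centralizer π.ker a b
    exact mem_centralizer_iff.1 (h1 hn) z hz
  have hKK : ∀ z ∈ π.ker, ∀ w ∈ π.ker, z * w = w * z := by
    intro z hz w hw
    let _ : CommGroup π.ker := IsCyclic.commGroup
    exact congrArg Subtype.val (mul_comm (⟨z, hz⟩ : π.ker) ⟨w, hw⟩)
  have hdec : ∀ a ∈ N1, ∃ n ∈ (⁅N1, N1⁆ : Subgroup Q), ∃ z ∈ π.ker, a = n * z := by
    intro a ha
    have h1 : π a ∈ (⁅N1, N1⁆ : Subgroup Q).map π := by rw [hmap]; exact ha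
    obtain ⟨n, hn, he⟩ := h1
    refine ⟨n, hn, n⁻¹ * a, ?_, by group⟩
    rw [MonoidHom.mem_ker, map_mul, map_inv, he, inv_mul_cancel]
  refine ⟨hπ, ?_, hs, hn, hq, ho, ?_, hmap, ?_⟩
  · let _ : CommGroup π.ker := IsCyclic.commGroup
    infer_instance
  · refine le_antisymm (commutator_le.2 fun a ha b hb => ?_) ?_
    · rw [commutatorElement_def]
      exact mul_mem (mul_mem (mul_mem ha hb) (inv_mem ha)) (inv_mem hb)
    · refine commutator_le.2 fun a ha b hb => ?_
      obtain ⟨n, hn, z, hz, rfl⟩ := hdec a ha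
      obtain ⟨m, hm, w, hw, rfl⟩ := hdec b hb
      have e : ⁅n * z, m * w⁆ = ⁅n, m⁆ := by
        rw [commutatorElement_def, commutatorElement_def]
        have c1 := hKc m hm z hz
        have c2 := hKc n hn w hw
        have c3 := hKK z hz w hw
        calc n * z * (m * w) * (n * z)⁻¹ * (m * w)⁻¹
            = n * (z * m) * w * z⁻¹ * n⁻¹ * w⁻¹ * m⁻¹ := by group
          _ = n * m * (z * w) * z⁻¹ * n⁻¹ * w⁻¹ * m⁻¹ := by rw [c1]; group
          _ = n * m * w * n⁻¹ * w⁻¹ * m⁻¹ := by rw [c3]; group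
          _ = n * m * (n⁻¹ * (n * w) * n⁻¹) * w⁻¹ * m⁻¹ := by group
          _ = n * m * (n⁻¹ * (w * n) * n⁻¹) * w⁻¹ * m⁻¹ := by rw [c2]
          _ = n * m * n⁻¹ * m⁻¹ := by group
      rw [e]
      exact commutator_mem_commutator hn hm
  · intro z hz
    rw [mem_centralizer_iff]
    intro n hn
    exact (hKc n hn z hz.2).symm

end cyclic

section prod

variable {X Y : Type*} [Group X] [Group Y]

theorem of_prod [IsSimpleGroup X] (hn : ¬ Group.IsSolvable X) [Group.IsSolvable Y] (ho : OddSolv X) :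
    Sit (MonoidHom.id (X × Y)) ((⊤ : Subgroup X).prod (⊥ : Subgroup Y)) ((⊤ : Subgroup X).prod (⊥ : Subgroup Y)) := by
  let e : X ≃* ↥((⊤ : Subgroup X).prod (⊥ : Subgroup Y)) :=
    { toFun := fun x => ⟨(x, 1), mem_top x, one_mem _⟩
      invFun := fun p => p.1.1
      left_inv := fun x => rfl
      right_inv := fun p => by
        obtain ⟨⟨a, b⟩, ha, hb⟩ := p
        have : b = 1 := hb
        subst this
        rfl
      map_mul' := fun a b => by
        apply Subtype.ext
        simp }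
  have hs : IsSimpleGroup ↥((⊤ : Subgroup X).prod (⊥ : Subgroup Y)) := H5.Small.simple_of_equiv e
  have hns : ¬ Group.IsSolvable ↥((⊤ : Subgroup X).prod (⊥ : Subgroup Y)) := fun h => hn
    (Group.isSolvable_of_isSolvable_injective (f := e.toMonoidHom) e.injective)
  have hk : (MonoidHom.id (X × Y)).ker = ⊥ := by
    rw [MonoidHom.ker_eq_bot_iff]
    exact fun _ _ h => h
  refine ⟨Function.surjective_id, ?_, hs, hns, ?_, ho.congr e, perf_of_simple hs hns, Subgroup.map_id _, ?_⟩
  · rw [hk]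
    infer_instance
  · have hk2 : (MonoidHom.snd X Y).ker = (⊤ : Subgroup X).prod (⊥ : Subgroup Y) := by
      ext ⟨a, b⟩
      rw [MonoidHom.mem_ker, mem_prod]
      simp
    have e2 := (QuotientGroup.quotientMulEquivOfEq hk2.symm).trans (QuotientGroup.quotientKerEquivOfSurjective
      (MonoidHom.snd X Y) Prod.snd_surjective)
    exact Group.isSolvable_of_isSolvable_injective (f := e2.toMonoidHom) e2.injective
  · rw [hk, inf_bot_eq]
    exact bot_le

end prod

end Cfsg.Agent.H3.SitLib
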