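import Cfsg.Agent.H3.M24Loc
import Cfsg.Agent.H3.SitLib
import Cfsg.Agent.H3.OddSmall
import Cfsg.Agent.S1558
import Cfsg.Agent.StdL2.G23Aut

/-!
# `M24`: members of `ℒ(G, T)` in the stabiliser of a trio (helper3)
-/

set_option autoImplicit false

open MulAction Subgroup
open scoped Pointwise

namespace Cfsg.Agent.H3.M24Trio

open Cfsg Cfsg.Agent.H3.OddTame

theorem card_GL : Nat.card (Matrix.GeneralLinearGroup (Fin 3) (ZMod 2)) = 168 := by
  rw [Matrix.card_GL_field]
  simp [Fin.prod_univ_succ, ZMod.card]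

theorem not_solvable_of_card {X : Type*} [Group X] [Finite X] [hs : IsSimpleGroup X]
    (hn : ¬ (Nat.card X).Prime) : ¬ Group.IsSolvable X := by
  intro h1
  have h2 := IsSimpleGroup.comm_iff_isSolvable.2 h1
  let _ : CommGroup X := { (inferInstance : Group X) with mul_comm := h2 }
  exact hn IsSimpleGroup.prime_card

/-- the members of `ℒ(G, T)` in a trio stabiliser -/
theorem row (T : Sylow 2 M24) {L : Subgroup M24} (hL : L ∈ calL (T : Subgroup M24)) {R : Finset (Finset GolayPt)}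
    (hR : R ∈ trios) (h : L ⊔ (T : Subgroup M24) ≤ stabilizer M24 R) :
    L ⊔ (T : Subgroup M24) ≤ normalizer (L : Set M24) ∧
      Nonempty ((L ⧸ pCore 2 L) ≃* Matrix.ProjectiveSpecialLinearGroup (Fin 3) (ZMod 2)) := by
  obtain ⟨-, N, hNn, hN, -, ⟨e⟩⟩ := S1558.result R hR
  have h2 : Fact (Nat.Prime 2) := ⟨Nat.prime_two⟩
  have hsG : IsSimpleGroup (Matrix.GeneralLinearGroup (Fin 3) (ZMod 2)) := StdL2.G23Aut.simple_GL
  have hns : ¬ Group.IsSolvable (Matrix.GeneralLinearGroup (Fin 3) (ZMod 2)) :=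
    not_solvable_of_card (by rw [card_GL]; norm_num)
  have hs3 : Group.IsSolvable (Equiv.Perm (Fin 3)) := H5.Small.solvable_of_lt _ rfl (by
    rw [Nat.card_perm, Nat.card_fin]; decide)
  have S := SitLib.of_prod (X := Matrix.GeneralLinearGroup (Fin 3) (ZMod 2)) (Y := Equiv.Perm (Fin 3)) hns
    (OddSmall.oddSolv_168 card_GL)
  have hk : (MonoidHom.id (Matrix.GeneralLinearGroup (Fin 3) (ZMod 2) × Equiv.Perm (Fin 3))).ker = ⊥ := by
    rw [MonoidHom.ker_eq_bot_iff]
    exact fun _ _ h => h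
  let ψ : ↥(stabilizer M24 R) →* (Matrix.GeneralLinearGroup (Fin 3) (ZMod 2) × Equiv.Perm (Fin 3)) :=
    e.toMonoidHom.comp (QuotientGroup.mk' N)
  have hψ : Function.Surjective ψ := e.surjective.comp (QuotientGroup.mk'_surjective N)
  have hkψ : ψ.ker = N := by
    ext x
    rw [MonoidHom.mem_ker]
    change e (QuotientGroup.mk x) = 1 ↔ x ∈ N
    rw [map_eq_one_iff e e.injective, QuotientGroup.eq_one_iff]
  have hker : IsPGroup 2 ψ.ker := by
    rw [hkψ]
    exact IsPGroup.of_card (n := 6) (by rw [hN]; norm_num)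
  obtain ⟨h3, ⟨f⟩⟩ := OddTame.row T hL (le_sup_right.trans h) (le_sup_left.trans h) S (by
    rw [hk, Subgroup.card_bot]; decide) ψ hψ hker
  refine ⟨h3, ?_⟩
  have hs := S.simple
  have hfin : Finite (L ⧸ pCore 2 L) := inferInstance
  have hsL : IsSimpleGroup (L ⧸ pCore 2 L) := (MulEquiv.isSimpleGroup_congr f).2 hs
  refine H5.PerfGL4.psl_of_card ?_ (by simp [ZMod.card])
  rw [Nat.card_congr f.toEquiv, Nat.card_congr (Subgroup.prodEquiv _ _).toEquiv, Nat.card_prod, Subgroup.card_bot,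
    Subgroup.card_top, card_GL]

end Cfsg.Agent.H3.M24Trio
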