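import Cfsg.Agent.H3.M24Loc
import Cfsg.Agent.H3.SitLib
import Cfsg.Agent.H3.OddSmall
import Cfsg.Agent.H3.M24Trio
import Cfsg.Agent.S1551
import Cfsg.Agent.CpQuot.Congr

/-!
# `M24`: members of `ℒ(G, T)` in the stabiliser of a sextet (helper3)
-/

set_option autoImplicit false

open MulAction Subgroup
open scoped Pointwise

namespace Cfsg.Agent.H3.M24Sextet

open Cfsg Cfsg.Agent.H3.OddTame Cfsg.Agent.SporadicStructure.SextetStab

theorem input {S : Finset (Finset GolayPt)} (hS : S ∈ sextets) : Input S := by
  have hS0 := SporadicStructure.SextetStd.stdSextet_mem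
  have h0 := SporadicStructure.SextetStd.input_std
  obtain ⟨t, ht⟩ := Finset.card_pos.1 (by rw [hS0.1]; norm_num : 0 < SporadicStructure.SextetStd.stdSextet.card)
  obtain ⟨t', ht'⟩ : S.Nonempty := by rw [← Finset.card_pos, hS.1]; norm_num
  obtain ⟨g, hg, hgt⟩ := SporadicStructure.SextetTrans.four_of_five S0366.result t t' (hS0.2.1 t ht) (hS.2.1 t' ht')
  have := smul_eq_of_mem S0363.result hg hS0 hS ht (by rw [hgt]; exact ht')
  rw [← this]
  exact h0.conj hg

variable {S : Finset (Finset GolayPt)} (hS : S ∈ sextets)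

include hS

theorem surj : Function.Surjective (toPerm S) := toPerm_surjective S0363.result hS (input hS)

theorem card_v : Nat.card (vSub S) = 64 :=
  card_vSub S0363.result (SporadicStructure.SextetTrans.four_of_five S0366.result) S0364.result hS (input hS)

theorem card_k : Nat.card (toPerm S).ker = 192 :=
  card_ker S0363.result (SporadicStructure.SextetTrans.four_of_five S0366.result) S0364.result hS (input hS)

omit hS in
theorem v_le : vSub S ≤ (toPerm S).ker := fun _ hx => mem_ker_toPerm.2 fun t ht => (hx t ht).1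

instance instNormalVSub (S : Finset (Finset GolayPt)) : (vSub S).Normal := vSub_normal S

/-- the action of `M / O_2(M)` on the sextet -/
def pi (S : Finset (Finset GolayPt)) : (↥(stabilizer M24 S) ⧸ vSub S) →* Equiv.Perm S :=
  QuotientGroup.lift (vSub S) (toPerm S) v_le

theorem pi_surj : Function.Surjective (pi S) := by
  intro e
  obtain ⟨g, rfl⟩ := surj hS e
  exact ⟨QuotientGroup.mk g, rfl⟩

theorem card_pi_ker : Nat.card (pi S).ker = 3 := by
  have h1 : (pi S).ker = ((toPerm S).ker).map (QuotientGroup.mk' (vSub S)) := by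
    ext x
    obtain ⟨g, rfl⟩ := QuotientGroup.mk_surjective x
    constructor
    · intro hx
      exact ⟨g, hx, rfl⟩
    · rintro ⟨y, hy, he⟩
      rw [← he]
      exact hy
  have h2 := Subgroup.card_mul_index ((vSub S).subgroupOf (toPerm S).ker)
  rw [Nat.card_congr (subgroupOfEquivOfLe v_le).toEquiv, card_v hS, card_k hS] at h2
  have h3 : Nat.card ↥(((toPerm S).ker).map (QuotientGroup.mk' (vSub S))) =
      ((vSub S).subgroupOf (toPerm S).ker).index := by
    rw [Subgroup.index]
    let f : ↥(toPerm S).ker →* ↥(((toPerm S).ker).map (QuotientGroup.mk' (vSub S))) :=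
      (QuotientGroup.mk' (vSub S)).subgroupMap _
    have hf : Function.Surjective f := (QuotientGroup.mk' (vSub S)).subgroupMap_surjective _
    have hk : f.ker = (vSub S).subgroupOf (toPerm S).ker := by
      ext x
      rw [MonoidHom.mem_ker, mem_subgroupOf]
      constructor
      · intro hx
        have := congrArg Subtype.val hx
        exact (QuotientGroup.eq_one_iff (x : ↥(stabilizer M24 S))).1 this
      · intro hx
        apply Subtype.ext
        exact (QuotientGroup.eq_one_iff (x : ↥(stabilizer M24 S))).2 hx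
    rw [← hk]
    exact (Nat.card_congr (QuotientGroup.quotientKerEquivOfSurjective f hf).toEquiv).symm
  rw [h1, h3]
  omega

/-- the members of `ℒ(G, T)` in a sextet stabiliser -/
theorem row (T : Sylow 2 M24) {L : Subgroup M24} (hL : L ∈ calL (T : Subgroup M24))
    (h : L ⊔ (T : Subgroup M24) ≤ stabilizer M24 S) :
    L ⊔ (T : Subgroup M24) ≤ normalizer (L : Set M24) ∧ IsQuasisimple (L ⧸ pCore 2 L) ∧
      Nonempty (((L ⧸ pCore 2 L) ⧸ center (L ⧸ pCore 2 L)) ≃* alternatingGroup (Fin 6)) ∧
      (Nat.card (L ⧸ pCore 2 L) = 360 ∨ Nat.card (L ⧸ pCore 2 L) = 1080) := by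
  classical
  have h2 : Fact (Nat.Prime 2) := ⟨Nat.prime_two⟩
  have h6 : Fintype.card S = 6 := by rw [Fintype.card_coe]; exact hS.1
  have e6 : alternatingGroup S ≃* alternatingGroup (Fin 6) := Equiv.altCongrHom (Fintype.equivFinOfCardEq h6)
  have hs6 : IsSimpleGroup (alternatingGroup (Fin 6)) := alternatingGroup.isSimpleGroup (by simp)
  have hs : IsSimpleGroup (alternatingGroup S) := H5.Small.simple_of_equiv e6.symm
  have hc6 : Nat.card (alternatingGroup S) = 360 := by
    have h1 : Nontrivial S := by
      rw [← Fintype.one_lt_card_iff_nontrivial, h6]; norm_num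
    rw [nat_card_alternatingGroup, Nat.card_eq_fintype_card, h6]
    rfl
  have hns : ¬ Group.IsSolvable (alternatingGroup S) := M24Trio.not_solvable_of_card (by rw [hc6]; norm_num)
  have hc3 : IsCyclic (pi S).ker := by
    have : Fact (Nat.Prime 3) := ⟨Nat.prime_three⟩
    exact isCyclic_of_prime_card (card_pi_ker hS)
  have hq : Group.IsSolvable (Equiv.Perm S ⧸ alternatingGroup S) := by
    let e : (Equiv.Perm S ⧸ alternatingGroup S) ≃* (Equiv.Perm.sign (α := S)).range :=
      QuotientGroup.quotientKerEquivRange (Equiv.Perm.sign (α := S))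
    exact Group.isSolvable_of_isSolvable_injective (f := e.toMonoidHom) e.injective
  have St := SitLib.of_cyclic (π := pi S) (A := alternatingGroup S) (pi_surj hS) hs hns hq
    (OddSmall.oddSolv_360 hc6)
  set N : Subgroup (↥(stabilizer M24 S) ⧸ vSub S) :=
    ⁅(alternatingGroup S).comap (pi S), (alternatingGroup S).comap (pi S)⁆ with hN
  have hker : IsPGroup 2 (QuotientGroup.mk' (vSub S)).ker := by
    rw [QuotientGroup.ker_mk']
    exact IsPGroup.of_card (n := 6) (by rw [card_v hS]; norm_num)
  obtain ⟨h3, ⟨f⟩⟩ := OddTame.row T hL (le_sup_right.trans h) (le_sup_left.trans h) St (by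
    rw [card_pi_ker hS]; decide) (QuotientGroup.mk' (vSub S)) (QuotientGroup.mk'_surjective _) hker
  have hqs := (SignalizersComponents.Components.isQuasisimple_congr f.symm).1 St.quasisimple
  obtain ⟨e⟩ := St.nonempty_quot
  refine ⟨h3, hqs, ⟨?_⟩, ?_⟩
  · exact ((QuotientGroup.congr (center (L ⧸ pCore 2 L)) (center N) f (by
      exact CpQuot.Congr.map_center f)).trans e).trans e6
  · have h4 : Nat.card N = 360 * Nat.card (center N) := by
      rw [card_eq_card_quotient_mul_card_subgroup (center N), Nat.card_congr e.toEquiv, hc6]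
    have h5 := St.card_center_dvd
    rw [card_pi_ker hS] at h5
    rw [Nat.card_congr f.toEquiv]
    rcases (Nat.dvd_prime Nat.prime_three).1 h5 with h7 | h7 <;> rw [h7] at h4
    · exact Or.inl h4
    · exact Or.inr h4

end Cfsg.Agent.H3.M24Sextet
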