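import Cfsg.Agent.H5.ResidEnd
import Cfsg.Agent.H4.U43.Row

/-!
# The quasithin list: residual groups and the others (helper3)

`table`: a group on the quasithin list either satisfies `H5.Resid.Conc` for all members of `ℒ_f(G, T)`, or is of Lie rank 2
over a field with more than two elements, or one of eight groups.
-/

set_option autoImplicit false

namespace Cfsg.Agent.H3.Table

open Subgroup Cfsg Cfsg.Agent.H4.LfTrans Cfsg.Agent.H5.Resid

universe u

/-- every member of `ℒ_f(G, T)` has the property `P` -/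
def Row (G : Type u) [Group G] (P : Subgroup G → Prop) : Prop :=
  ∀ (T : Sylow 2 G), ∀ L ∈ calLf (T : Subgroup G), P L

theorem Row.of_noLf {G : Type u} [Group G] {P : Subgroup G → Prop} (h : NoLf G) : Row G P := by
  intro T L hL
  rw [h T] at hL
  exact hL.elim

theorem Row.of_lfRow {G : Type u} [Group G] {P : Subgroup G → Prop} (h : LfRow G P) : Row G P :=
  fun T L hL => (h T L hL).2.2

theorem Row.mono {G : Type u} [Group G] {P Q : Subgroup G → Prop} (h : Row G P) (hPQ : ∀ L, P L → Q L) : Row G Q :=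
  fun T L hL => hPQ L (h T L hL)

/-- the eight further groups -/
def Eight (G : Type u) [Group G] : Prop :=
  (∃ (F : Type) (_ : Field F) (_ : Fintype F), Fintype.card F = 2 ∧
      Nonempty (G ≃* Matrix.ProjectiveSpecialLinearGroup (Fin 4) F)) ∨
    (∃ (F : Type) (_ : Field F) (_ : Fintype F), Fintype.card F = 2 ∧
      Nonempty (G ≃* Matrix.ProjectiveSpecialLinearGroup (Fin 5) F)) ∨
    Nonempty (G ≃* alternatingGroup (Fin 9)) ∨ Spor.IsoM22 G ∨ Spor.IsoM23 G ∨ Spor.IsoM24 G ∨ Spor.IsoHe G ∨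
    Spor.IsoJ4 G

/-- the types in the residual case -/
def Conc0 {G : Type u} [Group G] (L : Subgroup G) : Prop := IsAlt 6 L ∨ IsAlt 5 L ∨ IsL3 L

/-- **The table.** -/
theorem table {G : Type u} [Group G] [Finite G] (hFT : H5.Top.FT.{u}) (hE : IsOfEvenCharacteristic G)
    (hl : IsOnQTKEList G) (H : Hyp G) :
    Row G Conc0 ∨ IsLieRankTwoCharTwoLargeField G ∨ Eight G := by
  rcases hl with h | h | h | h | h
  · rcases h with h | ⟨F, _, _, hF, h | ⟨h4, h⟩ | ⟨h4, h⟩⟩ | ⟨F, _, _, n, hn, hF, h⟩ | ⟨F, _, _, hF, h⟩ |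
      ⟨K, _, _, n, hn, hK, h⟩ | h | h
    · exact Or.inl (.of_noLf (H4.Rows1.bender hFT hE h))
    · by_cases h4 : 4 ≤ Fintype.card F
      · exact Or.inr (Or.inl (Or.inl ⟨F, _, _, hF, h4, Or.inl h⟩))
      · obtain ⟨e⟩ := h
        have h2 : Fintype.card F = 2 := by
          obtain ⟨m, -, hm⟩ := FiniteField.card F 2
          have h5 : (m : ℕ) ≠ 0 := m.ne_zero
          rcases Nat.lt_or_ge (m : ℕ) 2 with h6 | h6
          · rw [hm, show (m : ℕ) = 1 by omega, pow_one]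
          · exfalso
            apply h4
            rw [hm]
            calc 4 = 2 ^ 2 := by norm_num
              _ ≤ 2 ^ (m : ℕ) := Nat.pow_le_pow_right (by norm_num) h6
        exact Or.inl (.of_noLf (H4.Rows2.psl3_two h2 e))
    · exact Or.inr (Or.inl (Or.inl ⟨F, _, _, hF, h4, Or.inr (Or.inl h)⟩))
    · exact Or.inr (Or.inl (Or.inl ⟨F, _, _, hF, h4, Or.inr (Or.inr h)⟩))
    · rcases Nat.lt_or_ge n 2 with h6 | h6
      · obtain rfl : n = 1 := by omega
        obtain ⟨e⟩ := h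
        exact Or.inl ((Row.of_lfRow (row_u42 hFT hE (by rw [hF]; norm_num) e)).mono fun L hL => Or.inr (Or.inl hL))
      · exact Or.inr (Or.inl (Or.inr (Or.inl ⟨F, _, _, n, h6, hF, h⟩)))
    · exact Or.inr (Or.inl (Or.inr (Or.inr (Or.inl ⟨F, _, _, hF, h⟩))))
    · rcases Nat.lt_or_ge n 2 with h6 | h6
      · obtain rfl : n = 1 := by omega
        exact Or.inl (.of_noLf (H.d42 ⟨K, _, _, by rw [hK]; norm_num, h⟩))
      · exact Or.inr (Or.inl (Or.inr (Or.inr (Or.inr (Or.inl ⟨K, _, _, n, h6, hK, h⟩)))))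
    · exact Or.inr (Or.inl (Or.inr (Or.inr (Or.inr (Or.inr h)))))
    · exact Or.inl (.of_noLf (H.tits h))
  · obtain ⟨F, _, _, hF, h | h | h⟩ := h
    · exact Or.inr (Or.inr (Or.inl ⟨F, _, _, hF, h⟩))
    · exact Or.inr (Or.inr (Or.inr (Or.inl ⟨F, _, _, hF, h⟩)))
    · have h' : Sp62 G := ⟨F, _, _, hF, h⟩
      exact Or.inl ((Row.of_lfRow (H.sp62 h')).mono fun L hL => hL.elim Or.inl fun hL => Or.inr (Or.inr hL))
  · rcases h with ⟨⟨e⟩⟩ | ⟨⟨e⟩⟩ | ⟨⟨e⟩⟩ | h
    · exact Or.inl (.of_noLf (H4.Rows1.alt_five e))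
    · exact Or.inl (.of_noLf (H4.Rows1.alt_six e))
    · obtain ⟨e'⟩ := S0256.result (F := ZMod 2) (by rw [ZMod.card])
      exact Or.inr (Or.inr (Or.inl ⟨ZMod 2, inferInstance, inferInstance, by rw [ZMod.card], ⟨e.trans e'.symm⟩⟩))
    · exact Or.inr (Or.inr (Or.inr (Or.inr (Or.inl h))))
  · rcases h with ⟨F, _, _, hF, ⟨e⟩⟩ | ⟨F, _, _, hF, ⟨⟨e⟩⟩ | ⟨⟨e⟩⟩ | ⟨⟨e⟩⟩⟩ | ⟨F, _, _, hF, ⟨⟨e⟩⟩ | h⟩
    · exact Or.inl (.of_noLf (H4.Rows1.psl2_odd F (odd_of_neighbour hF) e))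
    · exact Or.inl (.of_noLf (H4.Rows1.psl3_odd F (by rw [hF]; decide) e))
    · exact Or.inl ((Row.of_lfRow (row_l43 hE hF e)).mono fun L hL => Or.inr (Or.inl hL))
    · exact Or.inl ((Row.of_lfRow (row_g23 hFT hE hF e)).mono fun L hL => Or.inr (Or.inr hL))
    · exact Or.inl (.of_noLf (H4.Rows1.psu3_odd F (q := 3) (by rw [hF]; norm_num) (by decide) e))
    · have h' : U43 G := ⟨F, _, _, hF, h⟩
      exact Or.inl ((Row.of_lfRow (H.u43 h')).mono fun L hL => Or.inl hL)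
  · rcases h with h | h | h | h | h | h | h | h | h | h | h
    · exact Or.inl (.of_noLf (H4.Rows1.m11 h))
    · exact Or.inl (.of_noLf (H4.Rows1.m12 h))
    · exact Or.inr (Or.inr (Or.inr (Or.inr (Or.inr (Or.inl h)))))
    · exact Or.inr (Or.inr (Or.inr (Or.inr (Or.inr (Or.inr (Or.inl h))))))
    · exact Or.inr (Or.inr (Or.inr (Or.inr (Or.inr (Or.inr (Or.inr (Or.inl h)))))))
    · exact Or.inl (.of_noLf (H4.Rows2.j2 hE h))
    · exact Or.inl (.of_noLf (H4.Rows2.j3 hE h))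
    · exact Or.inr (Or.inr (Or.inr (Or.inr (Or.inr (Or.inr (Or.inr (Or.inr (Or.inr h))))))))
    · exact Or.inl ((Row.of_lfRow (row_hs hE h)).mono fun L hL => Or.inr (Or.inr hL))
    · exact Or.inr (Or.inr (Or.inr (Or.inr (Or.inr (Or.inr (Or.inr (Or.inr (Or.inl h))))))))
    · exact Or.inl ((Row.of_lfRow (row_ru hE h)).mono fun L hL => Or.inr (Or.inr hL))

end Cfsg.Agent.H3.Table
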